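import Groth.Agent.Gaga.H990.Stalk
import Groth.Agent.Gaga.H981.BH
import Groth.Agent.Gaga.H975.ModSec

/-!
# Charts of complex points by `ℂⁿ`

`Chart X`: an open embedding `pt : ℂⁿ → X(ℂ)` such that a function is holomorphic on `X(ℂ)` near `pt z` iff its
composition with `pt` is complex differentiable near `z`.

* `Chart.ofHol`: constructor from a criterion for functions on open sets;
* `Chart.im D`: the image of an open set; `Chart.coord`: the inverse of `pt`;
* `Chart.fn D f hf : O (An.hol X) (c.im D)`: the holomorphic function `f ∘ pt⁻¹`;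
* `Chart.bh D`: bounded holomorphic functions on `D` as holomorphic functions on `c.im D`;
* `Chart.fun_differentiableOn`: sections of `An.hol X` give differentiable functions.
-/

set_option autoImplicit false

open CategoryTheory AlgebraicGeometry Topology TopologicalSpace Opposite Filter Set

noncomputable section

namespace Groth.Agent.Gaga.H335.Chart

open Groth.Agent.Gaga.H990.ChartAt Groth.Agent.Gaga.H990.Stalk Groth.Agent.Gaga.H975.ModSec
open Groth.Agent.Gaga.H981.BH

variable {X : Scheme.{0}} [X.Over An.SC]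

instance algO (V : Opens (An.top X)) : Algebra ℂ (O (An.hol X) V) :=
  inferInstanceAs (Algebra ℂ (An.holSub V))

/-- Sections of the sheaf of holomorphic functions as functions. -/
def toFn {V : Opens (An.top X)} (g : O (An.hol X) V) : V → ℂ := (show An.holSub V from g).1

/-- Holomorphic functions as sections. -/
def ofFn {V : Opens (An.top X)} (g : V → ℂ) (h : (An.holPred X).pred g) : O (An.hol X) V :=
  (⟨g, h⟩ : An.holSub V)

@[simp] theorem toFn_ofFn {V : Opens (An.top X)} (g : V → ℂ) (h : (An.holPred X).pred g) :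
    toFn (ofFn g h) = g := rfl

theorem toFn_pred {V : Opens (An.top X)} (g : O (An.hol X) V) : (An.holPred X).pred (toFn g) :=
  (show An.holSub V from g).2

theorem O_ext {V : Opens (An.top X)} {g g' : O (An.hol X) V} (h : ∀ x, toFn g x = toFn g' x) : g = g' :=
  Subtype.ext (funext h)

@[simp] theorem toFn_add {V : Opens (An.top X)} (g g' : O (An.hol X) V) (x) :
    toFn (g + g') x = toFn g x + toFn g' x := rfl
@[simp] theorem toFn_mul {V : Opens (An.top X)} (g g' : O (An.hol X) V) (x) :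
    toFn (g * g') x = toFn g x * toFn g' x := rfl
@[simp] theorem toFn_smul {V : Opens (An.top X)} (a : ℂ) (g : O (An.hol X) V) (x) :
    toFn (a • g) x = a * toFn g x := rfl
@[simp] theorem toFn_zero {V : Opens (An.top X)} (x) : toFn (0 : O (An.hol X) V) x = 0 := rfl
@[simp] theorem toFn_one {V : Opens (An.top X)} (x) : toFn (1 : O (An.hol X) V) x = 1 := rfl
@[simp] theorem toFn_algebraMap {V : Opens (An.top X)} (a : ℂ) (x) :
    toFn (algebraMap ℂ (O (An.hol X) V) a) x = a := rfl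
@[simp] theorem toFn_resO {V W : Opens (An.top X)} (h : W ≤ V) (g : O (An.hol X) V) (x) :
    toFn (resO h g) x = toFn g ⟨x.1, h x.2⟩ := rfl

theorem resO_algebraMap {V W : Opens (An.top X)} (h : W ≤ V) (a : ℂ) :
    resO h (algebraMap ℂ (O (An.hol X) V) a) = algebraMap ℂ (O (An.hol X) W) a := rfl

variable (X) in
/-- A holomorphic chart `ℂⁿ → X(ℂ)`. -/
structure _root_.Groth.Agent.Gaga.H335.Chart where
  /-- the dimension -/
  n : ℕ
  /-- the parametrization -/
  pt : (Fin n → ℂ) → An.Pts X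
  emb : IsOpenEmbedding pt
  chartAt : ∀ (φ : An.Pts X → ℂ) (z : Fin n → ℂ),
    ChartAt φ (pt z) ↔ ∀ᶠ w in 𝓝 z, DifferentiableAt ℂ (fun w => φ (pt w)) w

/-- Constructor from a criterion for functions on open sets. -/
def ofHol (n : ℕ) (pt : (Fin n → ℂ) → An.Pts X) (emb : IsOpenEmbedding pt)
    (h : ∀ (V : Opens (An.top X)) (g : V → ℂ), (∀ x ∈ V, x ∈ range pt) →
      ((An.holPred X).pred g ↔ ∀ z, pt z ∈ V → DifferentiableAt ℂ (fun w => ext0 V g (pt w)) z)) :
    Chart X where
  n := n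
  pt := pt
  emb := emb
  chartAt := by
    intro φ z
    constructor
    · intro hφ
      obtain ⟨U, hU1, hU2, hU3⟩ := eventually_nhds_iff.1 (hφ.eventually.and
        (emb.isOpen_range.mem_nhds (mem_range_self z)))
      let V : Opens (An.top X) := ⟨U, hU2⟩
      have h1 := (h V (fun x => φ x.1) (fun x hx => (hU1 x hx).2)).1
        (holPred_of_chartAt φ (fun x hx => (hU1 x hx).1))
      have h2 : ∀ᶠ w in 𝓝 z, pt w ∈ V := emb.continuous.continuousAt.eventually
        (hU2.mem_nhds hU3)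
      rw [← eventually_eventually_nhds] at h2
      filter_upwards [h2] with w hw
      refine (h1 w hw.self_of_nhds).congr_of_eventuallyEq ?_
      filter_upwards [hw] with w' hw'
      rw [ext0_of_mem _ hw']
    · intro hφ
      obtain ⟨U, hU1, hU2, hU3⟩ := eventually_nhds_iff.1 hφ
      let V : Opens (An.top X) := ⟨pt '' U, emb.isOpenMap U hU2⟩
      have hzV : pt z ∈ V := ⟨z, hU3, rfl⟩
      have h1 : (An.holPred X).pred (U := V) (fun x => φ x.1) := by
        refine (h V (fun x => φ x.1) ?_).2 ?_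
        · rintro x ⟨w, -, rfl⟩
          exact mem_range_self w
        · intro w hw
          obtain ⟨w', hw', e⟩ := hw
          have e' : w' = w := emb.injective e
          subst e'
          refine (hU1 w' hw').congr_of_eventuallyEq ?_
          filter_upwards [hU2.mem_nhds hw'] with y hy
          exact ext0_of_mem (U := V) _ ⟨y, hy, rfl⟩
      have h2 := (holPred_iff _).1 h1 (pt z) hzV
      refine h2.congr ?_
      filter_upwards [V.isOpen.mem_nhds hzV] with y hy
      rw [ext0_of_mem _ hy]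

end Chart

namespace Chart

open Groth.Agent.Gaga.H990.ChartAt Groth.Agent.Gaga.H990.Stalk Groth.Agent.Gaga.H975.ModSec
open Groth.Agent.Gaga.H981.BH

variable {X : Scheme.{0}} [X.Over An.SC] (c : Chart X)

/-- The image of an open set. -/
def im (D : Opens (Fin c.n → ℂ)) : Opens (An.top X) := ⟨c.pt '' D, c.emb.isOpenMap D D.isOpen⟩

theorem mem_im {D : Opens (Fin c.n → ℂ)} {x : An.top X} : x ∈ c.im D ↔ ∃ z ∈ D, c.pt z = x := Iff.rfl

@[simp] theorem pt_mem_im {D : Opens (Fin c.n → ℂ)} {z : Fin c.n → ℂ} : c.pt z ∈ c.im D ↔ z ∈ D := by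
  constructor
  · rintro ⟨w, hw, e⟩
    rwa [← c.emb.injective e]
  · intro h
    exact ⟨z, h, rfl⟩

theorem im_mono {D D' : Opens (Fin c.n → ℂ)} (h : D' ≤ D) : c.im D' ≤ c.im D := image_mono h

/-- The inverse of `pt`, extended arbitrarily. -/
def coord : An.Pts X → (Fin c.n → ℂ) := Function.invFun c.pt

@[simp] theorem coord_pt (z : Fin c.n → ℂ) : c.coord (c.pt z) = z :=
  Function.leftInverse_invFun c.emb.injective z

theorem pt_coord {x : An.Pts X} (hx : x ∈ range c.pt) : c.pt (c.coord x) = x := by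
  obtain ⟨z, rfl⟩ := hx
  rw [coord_pt]

theorem coord_mem {D : Opens (Fin c.n → ℂ)} {x : An.top X} (hx : x ∈ c.im D) : c.coord x ∈ D := by
  obtain ⟨z, hz, rfl⟩ := hx
  exact (c.coord_pt z).symm ▸ hz

/-- The preimage of an open set of `X(ℂ)`. -/
def pre (V : Opens (An.top X)) : Opens (Fin c.n → ℂ) :=
  ⟨c.pt ⁻¹' (V : Set (An.top X)), V.isOpen.preimage c.emb.continuous⟩

@[simp] theorem mem_pre {V : Opens (An.top X)} {z : Fin c.n → ℂ} : z ∈ c.pre V ↔ c.pt z ∈ V := Iff.rfl

theorem im_le_iff {D : Opens (Fin c.n → ℂ)} {V : Opens (An.top X)} : c.im D ≤ V ↔ D ≤ c.pre V :=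
  image_subset_iff

theorem im_pre_le (V : Opens (An.top X)) : c.im (c.pre V) ≤ V := c.im_le_iff.2 le_rfl

/-- Differentiable functions as holomorphic functions. -/
theorem pred_fn (D : Opens (Fin c.n → ℂ)) (f : (Fin c.n → ℂ) → ℂ) (hf : DifferentiableOn ℂ f D) :
    (An.holPred X).pred (U := c.im D) (fun x => f (c.coord x.1)) := by
  refine holPred_of_chartAt (fun x => f (c.coord x)) ?_
  rintro x ⟨z, hz, rfl⟩
  rw [c.chartAt]
  filter_upwards [D.isOpen.mem_nhds hz] with w hw
  simp only [coord_pt]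
  exact hf.differentiableAt (D.isOpen.mem_nhds hw)

/-- The holomorphic function `f ∘ pt⁻¹`. -/
def fn (D : Opens (Fin c.n → ℂ)) (f : (Fin c.n → ℂ) → ℂ) (hf : DifferentiableOn ℂ f D) :
    O (An.hol X) (c.im D) := ofFn _ (c.pred_fn D f hf)

@[simp] theorem toFn_fn (D : Opens (Fin c.n → ℂ)) (f : (Fin c.n → ℂ) → ℂ) (hf : DifferentiableOn ℂ f D)
    (x : c.im D) : toFn (c.fn D f hf) x = f (c.coord x.1) := rfl

theorem toFn_fn_pt (D : Opens (Fin c.n → ℂ)) (f : (Fin c.n → ℂ) → ℂ) (hf : DifferentiableOn ℂ f D)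
    (z : Fin c.n → ℂ) (hz : c.pt z ∈ c.im D) : toFn (c.fn D f hf) ⟨c.pt z, hz⟩ = f z := by simp

theorem fn_congr (D : Opens (Fin c.n → ℂ)) {f g : (Fin c.n → ℂ) → ℂ} (hf : DifferentiableOn ℂ f D)
    (hg : DifferentiableOn ℂ g D) (h : EqOn f g D) : c.fn D f hf = c.fn D g hg :=
  O_ext fun x => h (c.coord_mem x.2)

theorem resO_fn {D D' : Opens (Fin c.n → ℂ)} (h : D' ≤ D) (h' : c.im D' ≤ c.im D)
    (f : (Fin c.n → ℂ) → ℂ) (hf : DifferentiableOn ℂ f D) :
    resO h' (c.fn D f hf) = c.fn D' f (hf.mono h) := rfl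

/-- The function on `ℂⁿ` attached to a holomorphic function (zero outside). -/
def fun_ {V : Opens (An.top X)} (g : O (An.hol X) V) (z : Fin c.n → ℂ) : ℂ := ext0 V (toFn g) (c.pt z)

theorem fun_of_mem {V : Opens (An.top X)} (g : O (An.hol X) V) {z : Fin c.n → ℂ} (h : c.pt z ∈ V) :
    c.fun_ g z = toFn g ⟨c.pt z, h⟩ := ext0_of_mem _ h

theorem fun_differentiableOn {V : Opens (An.top X)} (g : O (An.hol X) V) :
    DifferentiableOn ℂ (c.fun_ g) (c.pre V) := by
  intro z hz
  have h1 := (holPred_iff _).1 (toFn_pred g) (c.pt z) hz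
  rw [c.chartAt] at h1
  exact h1.self_of_nhds.differentiableWithinAt

theorem fn_fun {V : Opens (An.top X)} (g : O (An.hol X) V) (D : Opens (Fin c.n → ℂ)) (hD : D ≤ c.pre V)
    (h : c.im D ≤ V) : c.fn D (c.fun_ g) ((c.fun_differentiableOn g).mono hD) = resO h g := by
  apply O_ext
  rintro ⟨_, z, hz, rfl⟩
  rw [toFn_fn, coord_pt, toFn_resO]
  exact c.fun_of_mem g _

/-- Bounded holomorphic functions as holomorphic functions. -/
def bh (D : Opens (Fin c.n → ℂ)) : BH (D : Set (Fin c.n → ℂ)) →ₗ[ℂ] O (An.hol X) (c.im D) where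
  toFun f := c.fn D (BH.ext f) (BH.differentiableOn_ext f)
  map_add' f g := O_ext fun x => by
    rw [toFn_fn, BH.ext_add]; rfl
  map_smul' a f := O_ext fun x => by
    rw [toFn_fn, BH.ext_smul]; rfl

@[simp] theorem toFn_bh (D : Opens (Fin c.n → ℂ)) (f : BH (D : Set (Fin c.n → ℂ))) (x : c.im D) :
    toFn (c.bh D f) x = BH.ext f (c.coord x.1) := rfl

theorem resO_bh {D D' : Opens (Fin c.n → ℂ)} (h : D' ≤ D) (h' : c.im D' ≤ c.im D)
    (f : BH (D : Set (Fin c.n → ℂ))) :
    resO h' (c.bh D f) = c.bh D' (BH.res h f) := by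
  apply O_ext
  intro x
  rw [toFn_resO, toFn_bh, toFn_bh, BH.ext_res h f (c.coord_mem x.2)]

/-- The germ of a holomorphic function. -/
def gm (x : An.Pts X) {V : Opens (An.top X)} (hx : x ∈ V) : O (An.hol X) V →+* stk x :=
  ((An.holPresheaf X).germ V x hx).hom

theorem gm_eq (x : An.Pts X) {V : Opens (An.top X)} (hx : x ∈ V) (g : O (An.hol X) V) :
    gm x hx g = germ V x hx g := rfl

theorem gm_resO (x : An.Pts X) {V W : Opens (An.top X)} (h : W ≤ V) (hx : x ∈ W) (g : O (An.hol X) V) :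
    gm x hx (resO h g) = gm x (h hx) g :=
  (germ_eq_iff _ _ _ _).2 (ext0_res h g hx)

/-- `ℂ → stk x`, the constants. -/
instance algStk (x : An.Pts X) : Algebra ℂ (stk x) :=
  ((gm x (V := (⊤ : Opens (An.top X))) trivial).comp (algebraMap ℂ (O (An.hol X) ⊤))).toAlgebra

theorem algebraMap_stk (x : An.Pts X) {V : Opens (An.top X)} (hx : x ∈ V) (a : ℂ) :
    algebraMap ℂ (stk x) a = gm x hx (algebraMap ℂ _ a) := by
  rw [← resO_algebraMap (le_top : V ≤ ⊤), gm_resO]
  rfl

theorem toGerm_algebraMap (x : An.Pts X) (a : ℂ) :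
    toGerm x (algebraMap ℂ (stk x) a) = ((fun _ => a : An.Pts X → ℂ) : (𝓝 x).Germ ℂ) := by
  rw [algebraMap_stk x (V := ⊤) trivial, gm_eq, toGerm_germ]
  refine Germ.coe_eq.2 (Eventually.of_forall fun z => ?_)
  rw [ext0_of_mem _ (show z ∈ (⊤ : Opens (An.top X)) from trivial)]
  rfl

/-- The germ as a `ℂ`-linear map. -/
def gmₗ (x : An.Pts X) {V : Opens (An.top X)} (hx : x ∈ V) : O (An.hol X) V →ₗ[ℂ] stk x where
  toFun := gm x hx
  map_add' := map_add _
  map_smul' a g := by
    rw [RingHom.id_apply, Algebra.smul_def, Algebra.smul_def, map_mul, algebraMap_stk x hx]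

@[simp] theorem gmₗ_apply (x : An.Pts X) {V : Opens (An.top X)} (hx : x ∈ V) (g : O (An.hol X) V) :
    gmₗ x hx g = gm x hx g := rfl

/-- The germ at `pt a` of a bounded holomorphic function. -/
def gbh (D : Opens (Fin c.n → ℂ)) (a : Fin c.n → ℂ) (ha : a ∈ D) :
    BH (D : Set (Fin c.n → ℂ)) →ₗ[ℂ] stk (c.pt a) :=
  gmₗ (c.pt a) (c.pt_mem_im.2 ha) ∘ₗ c.bh D

theorem toGerm_gbh (D : Opens (Fin c.n → ℂ)) (a : Fin c.n → ℂ) (ha : a ∈ D)
    (f : BH (D : Set (Fin c.n → ℂ))) :
    toGerm (c.pt a) (c.gbh D a ha f) = ((fun x => BH.ext f (c.coord x) : An.Pts X → ℂ) : (𝓝 (c.pt a)).Germ ℂ) := by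
  change toGerm (c.pt a) (germ (c.im D) (c.pt a) _ (c.bh D f)) = _
  rw [toGerm_germ]
  refine Germ.coe_eq.2 ?_
  filter_upwards [(c.im D).isOpen.mem_nhds (c.pt_mem_im.2 ha)] with z hz
  exact ext0_of_mem _ hz

end Chart

end Groth.Agent.Gaga.H335
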