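import Mathlib.Analysis.Normed.Operator.Banach
import Mathlib.Analysis.Normed.Operator.Compact.Basic
import Mathlib.Analysis.Normed.Module.FiniteDimension
import Mathlib.LinearAlgebra.Quotient.Basic
import Mathlib.LinearAlgebra.FiniteDimensional.Basic
import Mathlib.Analysis.Complex.Basic

/-!
# Banach space lemmas for the finiteness theorem of Cartan-Serre

* `finite_quotient_range`: if `T : G → Z` is a bounded map of Banach spaces and the unit ball of `Z` is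
  contained in `T (C-ball) + K` with `K` totally bounded, then `Z / T(G)` is finite dimensional.
* `finite_of_system`: the abstract finiteness theorem. `H` is a vector space which is a quotient of Banach
  spaces `Z₂ → Z₁ → Z₀` (compact restriction maps) such that elements of `Z₁` dying in `H` come from a Banach
  space of coboundaries when restricted to `Z₀`. Then `H` is finite dimensional.
-/

set_option autoImplicit false

open Set Filter Topology

namespace Groth.Agent.Gaga.H335.BanachFin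

variable {𝕜 : Type*} [NontriviallyNormedField 𝕜]

section Approx

variable {G : Type*} [NormedAddCommGroup G] [NormedSpace 𝕜 G] [CompleteSpace G]
  {Z : Type*} [NormedAddCommGroup Z] [NormedSpace 𝕜 Z]

/-- An approximately surjective bounded map from a Banach space is surjective. -/
theorem surjective_of_approx (T : G →L[𝕜] Z) (C : ℝ)
    (h : ∀ z : Z, ∃ g : G, ‖g‖ ≤ C * ‖z‖ ∧ ‖z - T g‖ ≤ (1 / 2) * ‖z‖) :
    Function.Surjective T := by
  choose φ hφ1 hφ2 using h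
  intro z
  let e : Z → Z := fun y => y - T (φ y)
  have he : ∀ n : ℕ, ‖e^[n] z‖ ≤ (1 / 2) ^ n * ‖z‖ := by
    intro n
    induction n with
    | zero => simp
    | succ n ih =>
      rw [Function.iterate_succ_apply']
      calc ‖e (e^[n] z)‖ ≤ (1 / 2) * ‖e^[n] z‖ := hφ2 _
        _ ≤ (1 / 2) * ((1 / 2) ^ n * ‖z‖) := by gcongr
        _ = (1 / 2) ^ (n + 1) * ‖z‖ := by ring
  let u : ℕ → G := fun n => φ (e^[n] z)
  have hu : ∀ n, ‖u n‖ ≤ (1 / 2) ^ n * (|C| * ‖z‖) := by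
    intro n
    calc ‖u n‖ ≤ C * ‖e^[n] z‖ := hφ1 _
      _ ≤ |C| * ‖e^[n] z‖ := by gcongr; exact le_abs_self C
      _ ≤ |C| * ((1 / 2) ^ n * ‖z‖) := by gcongr; exact he n
      _ = (1 / 2) ^ n * (|C| * ‖z‖) := by ring
  have hsum : Summable u := by
    refine Summable.of_norm_bounded (g := fun n : ℕ => (1 / 2 : ℝ) ^ n * (|C| * ‖z‖)) ?_ hu
    exact (summable_geometric_of_lt_one (by norm_num) (by norm_num)).mul_right _
  have hT : ∀ n, T (u n) = e^[n] z - e^[n + 1] z := by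
    intro n
    rw [Function.iterate_succ_apply']
    simp [e, u]
  refine ⟨∑' n, u n, ?_⟩
  have h1 : HasSum (fun n => T (u n)) (T (∑' n, u n)) := T.hasSum hsum.hasSum
  have h2 : Tendsto (fun n : ℕ => ∑ i ∈ Finset.range n, T (u i)) atTop (𝓝 z) := by
    have h3 : ∀ n : ℕ, ∑ i ∈ Finset.range n, T (u i) = z - e^[n] z := by
      intro n
      induction n with
      | zero => simp
      | succ n ih => rw [Finset.sum_range_succ, ih, hT]; abel
    simp_rw [h3]
    have h4 : Tendsto (fun n : ℕ => e^[n] z) atTop (𝓝 0) := by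
      refine squeeze_zero_norm he ?_
      have := (tendsto_pow_atTop_nhds_zero_of_lt_one (r := (1 / 2 : ℝ)) (by norm_num)
        (by norm_num)).mul_const ‖z‖
      simpa using this
    simpa using h4.const_sub z
  exact tendsto_nhds_unique h1.tendsto_sum_nat h2

end Approx

section Quot

variable {G : Type*} [NormedAddCommGroup G] [NormedSpace ℂ G] [CompleteSpace G]
  {Z : Type*} [NormedAddCommGroup Z] [NormedSpace ℂ Z]

/-- If the unit ball is in `T(ball) + ` totally bounded, then the range of `T` has finite codimension. -/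
theorem finite_quotient_range (T : G →L[ℂ] Z) (C : ℝ) (K : Set Z) (hK : TotallyBounded K)
    (h : ∀ z : Z, ‖z‖ ≤ 1 → ∃ g : G, ‖g‖ ≤ C ∧ z - T g ∈ K) :
    Module.Finite ℂ (Z ⧸ LinearMap.range (T : G →ₗ[ℂ] Z)) := by
  classical
  obtain ⟨F, hFfin, hF⟩ := Metric.totallyBounded_iff.1 hK (1 / 2) (by norm_num)
  let S : Submodule ℂ Z := Submodule.span ℂ F
  have hS : Module.Finite ℂ S := by
    have := hFfin.fintype
    exact Module.Finite.iff_fg.2 (Submodule.fg_span hFfin)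
  have : CompleteSpace S := FiniteDimensional.complete ℂ S
  let T' : (G × S) →L[ℂ] Z := T.coprod S.subtypeL
  -- a bound for the norms of the elements of `F`
  obtain ⟨M, hM⟩ : ∃ M : ℝ, ∀ f ∈ F, ‖f‖ ≤ M := by
    obtain ⟨M, hM⟩ := (hFfin.image norm).bddAbove
    exact ⟨M, fun f hf => hM ⟨f, hf, rfl⟩⟩
  have key : ∀ z : Z, ‖z‖ ≤ 1 → ∃ u : G × S, ‖u‖ ≤ max C M ∧ ‖z - T' u‖ ≤ 1 / 2 := by
    intro z hz
    obtain ⟨g, hg, hgK⟩ := h z hz
    obtain ⟨f, hf, hfd⟩ := mem_iUnion₂.1 (hF hgK)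
    refine ⟨(g, ⟨f, Submodule.subset_span hf⟩), ?_, ?_⟩
    · rw [Prod.norm_def]
      exact max_le_max hg (hM f hf)
    · have : z - T' (g, ⟨f, Submodule.subset_span hf⟩) = (z - T g) - f := by
        simp [T', sub_sub]
      rw [this, ← dist_eq_norm]
      exact le_of_lt hfd
  have hsurj : Function.Surjective T' := by
    refine surjective_of_approx T' (max C M) fun z => ?_
    by_cases hz : z = 0
    · exact ⟨0, by simp [hz], by simp [hz]⟩
    have hz' : (‖z‖ : ℂ) ≠ 0 := by simpa using hz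
    obtain ⟨u, hu1, hu2⟩ := key ((‖z‖ : ℂ)⁻¹ • z) (by
      rw [norm_smul, norm_inv, Complex.norm_real, norm_norm, inv_mul_cancel₀ (by simpa using hz)])
    refine ⟨(‖z‖ : ℂ) • u, ?_, ?_⟩
    · rw [norm_smul, Complex.norm_real, norm_norm, mul_comm]
      gcongr
    · have : z - T' ((‖z‖ : ℂ) • u) = (‖z‖ : ℂ) • ((‖z‖ : ℂ)⁻¹ • z - T' u) := by
        rw [map_smul, smul_sub, smul_inv_smul₀ hz']
      rw [this, norm_smul, Complex.norm_real, norm_norm, mul_comm]
      gcongr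
  -- the quotient is a quotient of `S`
  let q : S →ₗ[ℂ] Z ⧸ LinearMap.range (T : G →ₗ[ℂ] Z) := (Submodule.mkQ _).comp S.subtype
  refine Module.Finite.of_surjective q fun y => ?_
  obtain ⟨z, rfl⟩ := Submodule.mkQ_surjective _ y
  obtain ⟨⟨g, s⟩, hgs⟩ := hsurj z
  refine ⟨s, ?_⟩
  change Submodule.mkQ _ (s : Z) = Submodule.mkQ _ z
  rw [Submodule.mkQ_apply, Submodule.mkQ_apply, Submodule.Quotient.eq]
  refine ⟨-g, ?_⟩
  rw [← hgs]
  simp [T']

end Quot

section System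

variable {H Z₀ Z₁ Z₂ G : Type*} [AddCommGroup H] [Module ℂ H]
  [NormedAddCommGroup Z₀] [NormedSpace ℂ Z₀]
  [NormedAddCommGroup Z₁] [NormedSpace ℂ Z₁] [CompleteSpace Z₁]
  [NormedAddCommGroup Z₂] [NormedSpace ℂ Z₂] [CompleteSpace Z₂]
  [NormedAddCommGroup G] [NormedSpace ℂ G] [CompleteSpace G]

/-- The abstract finiteness theorem. -/
theorem finite_of_system (r₁ : Z₁ →L[ℂ] Z₀) (r₂ : Z₂ →L[ℂ] Z₁) (hr₂ : IsCompactOperator r₂)
    (g : G →L[ℂ] Z₀) (h₀ : Z₀ →ₗ[ℂ] H) (h₁ : Z₁ →ₗ[ℂ] H) (h₂ : Z₂ →ₗ[ℂ] H)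
    (c₁ : ∀ z, h₀ (r₁ z) = h₁ z) (c₂ : ∀ z, h₁ (r₂ z) = h₂ z)
    (hs : Function.Surjective h₂) (hg0 : ∀ c, h₀ (g c) = 0)
    (hg : ∀ z, h₁ z = 0 → ∃ c, g c = r₁ z) : Module.Finite ℂ H := by
  -- the Banach space of triples
  let E : Submodule ℂ (Z₁ × Z₂ × G) :=
    LinearMap.ker ((r₁ ∘L ContinuousLinearMap.fst ℂ Z₁ (Z₂ × G) -
      (r₁ ∘L r₂ ∘L ContinuousLinearMap.fst ℂ Z₂ G + g ∘L ContinuousLinearMap.snd ℂ Z₂ G) ∘L
        ContinuousLinearMap.snd ℂ Z₁ (Z₂ × G) : (Z₁ × Z₂ × G) →L[ℂ] Z₀) : (Z₁ × Z₂ × G) →ₗ[ℂ] Z₀)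
  have hE : ∀ z, z ∈ E ↔ r₁ z.1 = r₁ (r₂ z.2.1) + g z.2.2 := by
    intro z
    simp [E, LinearMap.mem_ker, sub_eq_zero]
  have hEc : IsClosed (E : Set (Z₁ × Z₂ × G)) := ContinuousLinearMap.isClosed_ker _
  have : CompleteSpace E := hEc.completeSpace_coe
  let p : E →L[ℂ] Z₁ := ContinuousLinearMap.fst ℂ Z₁ (Z₂ × G) ∘L E.subtypeL
  have hp : Function.Surjective p := by
    intro z
    obtain ⟨z', hz'⟩ := hs (h₁ z)
    obtain ⟨c, hc⟩ := hg (z - r₂ z') (by rw [map_sub, c₂, hz', sub_self])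
    refine ⟨⟨(z, z', c), (hE _).2 ?_⟩, rfl⟩
    rw [hc, map_sub]
    abel
  obtain ⟨C, hC0, hC⟩ := p.exists_preimage_norm_le hp
  -- the Banach space of pairs, mapping onto the kernel of `h₁`
  let E' : Submodule ℂ (Z₁ × G) :=
    LinearMap.ker ((r₁ ∘L ContinuousLinearMap.fst ℂ Z₁ G - g ∘L ContinuousLinearMap.snd ℂ Z₁ G :
      (Z₁ × G) →L[ℂ] Z₀) : (Z₁ × G) →ₗ[ℂ] Z₀)
  have hE' : ∀ z, z ∈ E' ↔ r₁ z.1 = g z.2 := by
    intro z
    simp [E', LinearMap.mem_ker, sub_eq_zero]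
  have hEc' : IsClosed (E' : Set (Z₁ × G)) := ContinuousLinearMap.isClosed_ker _
  have : CompleteSpace E' := hEc'.completeSpace_coe
  let T : E' →L[ℂ] Z₁ := ContinuousLinearMap.fst ℂ Z₁ G ∘L E'.subtypeL
  have hTk : ∀ z, h₁ z = 0 ↔ z ∈ LinearMap.range (T : E' →ₗ[ℂ] Z₁) := by
    intro z
    constructor
    · intro hz
      obtain ⟨c, hc⟩ := hg z hz
      exact ⟨⟨(z, c), (hE' _).2 hc.symm⟩, rfl⟩
    · rintro ⟨⟨⟨z', c⟩, hzc⟩, rfl⟩
      have := (hE' _).1 hzc
      change h₁ z' = 0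
      rw [← c₁, this, hg0]
  have hfin : Module.Finite ℂ (Z₁ ⧸ LinearMap.range (T : E' →ₗ[ℂ] Z₁)) := by
    refine finite_quotient_range T (C + ‖r₂‖ * C) (r₂ '' Metric.closedBall 0 C) ?_ ?_
    · have : IsCompact (closure (r₂ '' Metric.closedBall 0 C)) :=
        hr₂.isCompact_closure_image_closedBall (r := C)
      exact this.totallyBounded.subset subset_closure
    · intro z hz
      obtain ⟨⟨⟨z₁, z₂, c⟩, hzc⟩, hpz, hnorm⟩ := hC z
      have hz1 : z₁ = z := hpz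
      subst hz1
      have hn : ‖((z₁, z₂, c) : Z₁ × Z₂ × G)‖ ≤ C := by
        refine le_trans hnorm ?_
        calc C * ‖z₁‖ ≤ C * 1 := by gcongr
          _ = C := mul_one C
      have hn2 : ‖z₂‖ ≤ C := le_trans (le_trans (norm_fst_le (z₂, c)) (norm_snd_le (z₁, (z₂, c)))) hn
      have hn3 : ‖c‖ ≤ C := le_trans (le_trans (norm_snd_le (z₂, c)) (norm_snd_le (z₁, (z₂, c)))) hn
      have hn1 : ‖z₁‖ ≤ C := le_trans (norm_fst_le (z₁, (z₂, c))) hn
      have hrel : r₁ z₁ = r₁ (r₂ z₂) + g c := (hE _).1 hzc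
      refine ⟨⟨(z₁ - r₂ z₂, c), (hE' _).2 ?_⟩, ?_, ?_⟩
      · rw [map_sub, hrel]; abel
      · change ‖((z₁ - r₂ z₂, c) : Z₁ × G)‖ ≤ _
        rw [Prod.norm_def]
        refine max_le ?_ ?_
        · calc ‖z₁ - r₂ z₂‖ ≤ ‖z₁‖ + ‖r₂ z₂‖ := norm_sub_le _ _
            _ ≤ C + ‖r₂‖ * C := by
              gcongr
              exact le_trans (r₂.le_opNorm z₂) (by gcongr)
        · calc ‖c‖ ≤ C := hn3
            _ ≤ C + ‖r₂‖ * C := by
              have : 0 ≤ ‖r₂‖ * C := by positivity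
              linarith
      · refine ⟨z₂, by simpa using hn2, ?_⟩
        change r₂ z₂ = z₁ - (z₁ - r₂ z₂)
        abel
  -- conclude
  have hs1 : Function.Surjective h₁ := by
    intro y
    obtain ⟨z, hz⟩ := hs y
    exact ⟨r₂ z, by rw [c₂, hz]⟩
  let φ : (Z₁ ⧸ LinearMap.range (T : E' →ₗ[ℂ] Z₁)) →ₗ[ℂ] H :=
    Submodule.liftQ _ h₁ (fun z hz => by rw [LinearMap.mem_ker]; exact (hTk z).2 hz)
  refine Module.Finite.of_surjective φ fun y => ?_
  obtain ⟨z, hz⟩ := hs1 y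
  exact ⟨Submodule.Quotient.mk z, by simpa [φ] using hz⟩

end System

end Groth.Agent.Gaga.H335.BanachFin
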