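import Mathlib.Topology.Sets.Opens
import Mathlib.Algebra.Module.LinearMap.Basic
import Mathlib.Analysis.Complex.Basic

/-!
# Elementwise sheaves of complex vector spaces

`Sh T` is a sheaf of complex vector spaces on the topological space `T`, given elementwise (spaces of sections,
linear restriction maps, separation and gluing). `ShHom F G` are the morphisms. This is only a convenient
interface: the finiteness theorem is proved for such data and then applied to sheaves of modules over the
sheaf of holomorphic functions.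
-/

set_option autoImplicit false
universe u v

open TopologicalSpace

namespace Groth.Agent.Gaga.H335.CSh

/-- A sheaf of complex vector spaces, elementwise. -/
structure Sh (T : Type u) [TopologicalSpace T] where
  /-- sections -/
  S : Opens T → Type v
  [acg : ∀ U, AddCommGroup (S U)]
  [mod : ∀ U, Module ℂ (S U)]
  /-- restriction maps -/
  r : ∀ {U V : Opens T}, V ≤ U → S U →ₗ[ℂ] S V
  r_self : ∀ {U : Opens T} (h : U ≤ U) (s : S U), r h s = s
  r_r : ∀ {U V W : Opens T} (h : V ≤ U) (h' : W ≤ V) (s : S U), r h' (r h s) = r (h'.trans h) s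
  sep : ∀ {U : Opens T} (s t : S U),
    (∀ x ∈ U, ∃ (V : Opens T) (hV : V ≤ U), x ∈ V ∧ r hV s = r hV t) → s = t
  glue : ∀ {ι : Type u} (V : ι → Opens T) (s : ∀ i, S (V i)),
    (∀ i j, r (inf_le_left : V i ⊓ V j ≤ V i) (s i) = r (inf_le_right : V i ⊓ V j ≤ V j) (s j)) →
    ∃ w : S (iSup V), ∀ i, r (le_iSup V i) w = s i

attribute [instance] Sh.acg Sh.mod
attribute [simp] Sh.r_self Sh.r_r

variable {T : Type u} [TopologicalSpace T]

/-- Morphisms, elementwise. -/
structure ShHom (F G : Sh.{u, v} T) where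
  /-- the action on sections -/
  app : ∀ U : Opens T, F.S U →ₗ[ℂ] G.S U
  nat : ∀ {U V : Opens T} (h : V ≤ U) (s : F.S U), app V (F.r h s) = G.r h (app U s)

namespace Sh

variable (F : Sh.{u, v} T)

/-- Gluing over a given open with an index type in any universe. -/
theorem glue' {ι : Type*} {U : Opens T} (V : ι → Opens T) (hV : ∀ i, V i ≤ U)
    (hU : ∀ x ∈ U, ∃ i, x ∈ V i) (s : ∀ i, F.S (V i))
    (hs : ∀ i j, F.r (inf_le_left : V i ⊓ V j ≤ V i) (s i) =
      F.r (inf_le_right : V i ⊓ V j ≤ V j) (s j)) :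
    ∃ w : F.S U, ∀ i, F.r (hV i) w = s i := by
  classical
  choose k hk using hU
  let V' : U → Opens T := fun x => V (k x.1 x.2)
  have hsup : iSup V' = U := by
    apply le_antisymm
    · exact iSup_le fun x => hV _
    · intro x hx
      exact Opens.mem_iSup.2 ⟨⟨x, hx⟩, hk x hx⟩
  obtain ⟨w, hw⟩ := F.glue V' (fun x => s (k x.1 x.2)) (fun x y => hs _ _)
  refine ⟨F.r (le_of_eq hsup.symm) w, fun i => ?_⟩
  refine F.sep _ _ fun x hx => ?_
  have hxU : x ∈ U := hV i hx
  refine ⟨V i ⊓ V (k x hxU), inf_le_left, ⟨hx, hk x hxU⟩, ?_⟩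
  have h1 := congrArg (F.r (inf_le_right : V i ⊓ V (k x hxU) ≤ V (k x hxU))) (hw ⟨x, hxU⟩)
  rw [F.r_r] at h1
  rw [F.r_r, F.r_r, hs i (k x hxU)]
  exact h1

/-- Two sections agreeing on the members of a cover are equal. -/
theorem sep' {ι : Type*} {U : Opens T} (V : ι → Opens T) (hV : ∀ i, V i ≤ U)
    (hU : ∀ x ∈ U, ∃ i, x ∈ V i) (s t : F.S U)
    (h : ∀ i, F.r (hV i) s = F.r (hV i) t) : s = t := by
  refine F.sep s t fun x hx => ?_
  obtain ⟨i, hi⟩ := hU x hx
  exact ⟨V i, hV i, hi, h i⟩

/-- Gluing two sections. -/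
theorem glue₂ {U V W : Opens T} (hU : U ≤ W) (hV : V ≤ W) (hW : ∀ x ∈ W, x ∈ U ∨ x ∈ V)
    (s : F.S U) (t : F.S V)
    (h : F.r (inf_le_left : U ⊓ V ≤ U) s = F.r (inf_le_right : U ⊓ V ≤ V) t) :
    ∃ w : F.S W, F.r hU w = s ∧ F.r hV w = t := by
  let Y : Bool → Opens T := fun b => cond b U V
  let σ : ∀ b, F.S (Y b) := fun b => match b with
    | true => s
    | false => t
  obtain ⟨w, hw⟩ := F.glue' Y (U := W) (fun b => by cases b <;> assumption)
    (fun x hx => by
      rcases hW x hx with h | h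
      · exact ⟨true, h⟩
      · exact ⟨false, h⟩) σ (by
      rintro (_ | _) (_ | _)
      · rfl
      · have := congrArg (F.r (le_of_eq (inf_comm V U))) h
        simp only [r_r] at this
        exact this.symm
      · exact h
      · rfl)
  exact ⟨w, hw true, hw false⟩

end Sh

end Groth.Agent.Gaga.H335.CSh
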