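import Groth.Agent.Gaga.H335.Discs

/-!
# The abstract finiteness theorem for `H¹`

`finite_H1`: let `0 → F → I → Q` be exact sheaves of complex vector spaces on a compact space `T`, `I` flasque,
and suppose `F` has a disc system such that `I(δ) → Q(δ)` is surjective for all discs `δ` (i.e.
`H¹(δ, F) = 0`). Then `Q(T) / I(T)` (that is `H¹(T, F)`) is finite dimensional.
-/

set_option autoImplicit false
universe u v w

open TopologicalSpace Set

namespace Groth.Agent.Gaga.H335.CechFin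

open CSh Discs BanachFin

section Alg

variable {Z A : Type*} [AddCommGroup Z] [Module ℂ Z] [AddCommGroup A] [Module ℂ A]

/-- A linear map from a linear relation. -/
theorem exists_linearMap (R : Submodule ℂ (Z × A)) (N : Submodule ℂ A) (ex : ∀ z, ∃ a, (z, a) ∈ R)
    (un : ∀ a, ((0 : Z), a) ∈ R → a ∈ N) :
    ∃ h : Z →ₗ[ℂ] A ⧸ N, ∀ z a, (z, a) ∈ R → h z = N.mkQ a := by
  choose φ hφ using ex
  have key : ∀ z a, (z, a) ∈ R → N.mkQ (φ z) = N.mkQ a := by
    intro z a ha
    rw [Submodule.mkQ_apply, Submodule.mkQ_apply, Submodule.Quotient.eq]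
    apply un
    have := R.sub_mem (hφ z) ha
    simpa using this
  refine ⟨{ toFun := fun z => N.mkQ (φ z), map_add' := ?_, map_smul' := ?_ }, fun z a ha => key z a ha⟩
  · intro x y
    rw [← map_add]
    exact key _ _ (by simpa using R.add_mem (hφ x) (hφ y))
  · intro c x
    rw [RingHom.id_apply, ← map_smul]
    exact key _ _ (by simpa using R.smul_mem c (hφ x))

/-- A product of compact operators is compact. -/
theorem isCompactOperator_pi {ι : Type*} [Finite ι] {E : Type*} [TopologicalSpace E] [Zero E]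
    {G : ι → Type*} [∀ i, TopologicalSpace (G i)] [∀ i, Zero (G i)]
    (f : ∀ i, E → G i) (h : ∀ i, IsCompactOperator (f i)) :
    IsCompactOperator (fun x i => f i x) := by
  choose K hK hf using h
  refine ⟨Set.pi univ K, isCompact_univ_pi hK, ?_⟩
  have : (fun x i => f i x) ⁻¹' (Set.pi univ K) = ⋂ i, (f i) ⁻¹' (K i) := by
    ext x
    simp [Set.mem_pi]
  rw [this]
  exact (Filter.iInter_mem).2 hf

end Alg

variable {T : Type u} [TopologicalSpace T] {F I Q : Sh.{u, v} T} {f : ShHom F I} {g : ShHom I Q}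

/-- `0 → F → I → Q` exact with `I` flasque. -/
structure Resn (f : ShHom F I) (g : ShHom I Q) : Prop where
  inj : ∀ U, Function.Injective (f.app U)
  ex : ∀ U s, g.app U s = 0 → ∃ t, f.app U t = s
  zero : ∀ U t, g.app U (f.app U t) = 0
  fl : Flasque I

variable {D : DiscSys.{u, v, w} F} {ι : Type w} {U : ι → Opens T} (M : Lvl D U)

/-- The Banach space of a level. -/
abbrev Bs : Type w := ∀ i j (l : M.L i j), D.B (M.P i j l)

/-- The open subset of `U i ⊓ U j` attached to an index. -/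
def V (i j : ι) (l : M.L i j) : Opens T := D.car (M.P i j l) ⊓ (U i ⊓ U j)

theorem V_le_car (i j : ι) (l : M.L i j) : V M i j l ≤ D.car (M.P i j l) := inf_le_left
theorem V_le_inf (i j : ι) (l : M.L i j) : V M i j l ≤ U i ⊓ U j := inf_le_right
theorem V_le_left (i j : ι) (l : M.L i j) : V M i j l ≤ U i := inf_le_right.trans inf_le_left
theorem V_le_right (i j : ι) (l : M.L i j) : V M i j l ≤ U j := inf_le_right.trans inf_le_right

variable (f g) in
/-- Lifted cochains together with the global section of `Q` they represent. -/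
def relSub : Submodule ℂ (Bs M × Q.S ⊤) where
  carrier := {p | ∃ c : ∀ i, I.S (U i), (∀ i, g.app _ (c i) = Q.r le_top p.2) ∧
    ∀ i j l, f.app _ (F.r (V_le_car M i j l) (D.sec _ (p.1 i j l))) =
      I.r (V_le_right M i j l) (c j) - I.r (V_le_left M i j l) (c i)}
  zero_mem' := ⟨fun _ => 0, by simp, by simp⟩
  add_mem' := by
    rintro p p' ⟨c, hc1, hc2⟩ ⟨c', hc1', hc2'⟩
    refine ⟨fun i => c i + c' i, fun i => ?_, fun i j l => ?_⟩
    · simp [hc1, hc1']
    · have h1 := hc2 i j l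
      have h2 := hc2' i j l
      simp only [Prod.fst_add, Pi.add_apply, map_add] at *
      rw [h1, h2]
      abel
  smul_mem' := by
    rintro a p ⟨c, hc1, hc2⟩
    refine ⟨fun i => a • c i, fun i => ?_, fun i j l => ?_⟩
    · simp [hc1]
    · have h1 := hc2 i j l
      simp only [Prod.smul_fst, Pi.smul_apply, map_smul] at *
      rw [h1, smul_sub]

theorem mem_relSub {p : Bs M × Q.S ⊤} : p ∈ relSub f g M ↔
    ∃ c : ∀ i, I.S (U i), (∀ i, g.app _ (c i) = Q.r le_top p.2) ∧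
    ∀ i j l, f.app _ (F.r (V_le_car M i j l) (D.sec _ (p.1 i j l))) =
      I.r (V_le_right M i j l) (c j) - I.r (V_le_left M i j l) (c i) := Iff.rfl

/-- The space of cocycles of a level. -/
def zSub : Submodule ℂ (Bs M) where
  carrier := {b | (∀ i j l l', F.r (inf_le_left.trans (V_le_car M i j l) : V M i j l ⊓ V M i j l' ≤ _)
        (D.sec _ (b i j l)) =
      F.r (inf_le_right.trans (V_le_car M i j l')) (D.sec _ (b i j l'))) ∧
    ∀ i j m l l' l'', F.r ((inf_le_left.trans inf_le_left).trans (V_le_car M i j l) :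
        V M i j l ⊓ V M j m l' ⊓ V M i m l'' ≤ _) (D.sec _ (b i j l)) +
      F.r ((inf_le_left.trans inf_le_right).trans (V_le_car M j m l')) (D.sec _ (b j m l')) =
      F.r (inf_le_right.trans (V_le_car M i m l'')) (D.sec _ (b i m l''))}
  zero_mem' := by simp
  add_mem' := by
    rintro b b' ⟨h1, h2⟩ ⟨h1', h2'⟩
    refine ⟨fun i j l l' => ?_, fun i j m l l' l'' => ?_⟩
    · simp only [Pi.add_apply, map_add]
      rw [h1, h1']
    · simp only [Pi.add_apply, map_add]
      rw [← h2, ← h2']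
      abel
  smul_mem' := by
    rintro a b ⟨h1, h2⟩
    refine ⟨fun i j l l' => ?_, fun i j m l l' l'' => ?_⟩
    · simp only [Pi.smul_apply, map_smul]
      rw [h1]
    · simp only [Pi.smul_apply, map_smul]
      rw [← h2, smul_add]

theorem mem_zSub {b : Bs M} : b ∈ zSub M ↔
    (∀ i j l l', F.r (inf_le_left.trans (V_le_car M i j l) : V M i j l ⊓ V M i j l' ≤ _)
        (D.sec _ (b i j l)) =
      F.r (inf_le_right.trans (V_le_car M i j l')) (D.sec _ (b i j l'))) ∧
    ∀ i j m l l' l'', F.r ((inf_le_left.trans inf_le_left).trans (V_le_car M i j l) :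
        V M i j l ⊓ V M j m l' ⊓ V M i m l'' ≤ _) (D.sec _ (b i j l)) +
      F.r ((inf_le_left.trans inf_le_right).trans (V_le_car M j m l')) (D.sec _ (b j m l')) =
      F.r (inf_le_right.trans (V_le_car M i m l'')) (D.sec _ (b i m l'')) := Iff.rfl

theorem isClosed_zSub [Finite ι] : IsClosed (zSub M : Set (Bs M)) := by
  have h1 : (zSub M : Set (Bs M)) =
      (⋂ i, ⋂ j, ⋂ l, ⋂ l', {b : Bs M | F.r (inf_le_left.trans (V_le_car M i j l) :
        V M i j l ⊓ V M i j l' ≤ _) (D.sec _ (b i j l)) =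
        F.r (inf_le_right.trans (V_le_car M i j l')) (D.sec _ (b i j l'))}) ∩
      ⋂ i, ⋂ j, ⋂ m, ⋂ l, ⋂ l', ⋂ l'', {b : Bs M |
        F.r ((inf_le_left.trans inf_le_left).trans (V_le_car M i j l) :
        V M i j l ⊓ V M j m l' ⊓ V M i m l'' ≤ _) (D.sec _ (b i j l)) +
      F.r ((inf_le_left.trans inf_le_right).trans (V_le_car M j m l')) (D.sec _ (b j m l')) =
      F.r (inf_le_right.trans (V_le_car M i m l'')) (D.sec _ (b i m l''))} := by
    ext b
    simp only [SetLike.mem_coe, mem_zSub, mem_inter_iff, mem_iInter, mem_ofPred_eq]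
  rw [h1]
  refine IsClosed.inter ?_ ?_
  · refine isClosed_iInter fun i => isClosed_iInter fun j => isClosed_iInter fun l =>
      isClosed_iInter fun l' => ?_
    have h2 := D.closed (M.P i j l) (M.P i j l') (M.P i j l) (V M i j l ⊓ V M i j l')
      (inf_le_left.trans (V_le_car M i j l)) (inf_le_right.trans (V_le_car M i j l'))
      (inf_le_left.trans (V_le_car M i j l))
    have h3 : Continuous (fun b : Bs M => ((b i j l, -b i j l', 0) :
      D.B (M.P i j l) × D.B (M.P i j l') × D.B (M.P i j l))) := by fun_prop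
    convert h2.preimage h3 using 1
    ext b
    simp only [mem_ofPred_eq, mem_preimage, map_neg, map_zero, add_zero]
    rw [add_neg_eq_zero]
  · refine isClosed_iInter fun i => isClosed_iInter fun j => isClosed_iInter fun m =>
      isClosed_iInter fun l => isClosed_iInter fun l' => isClosed_iInter fun l'' => ?_
    have h2 := D.closed (M.P i j l) (M.P j m l') (M.P i m l'') (V M i j l ⊓ V M j m l' ⊓ V M i m l'')
      ((inf_le_left.trans inf_le_left).trans (V_le_car M i j l))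
      ((inf_le_left.trans inf_le_right).trans (V_le_car M j m l'))
      (inf_le_right.trans (V_le_car M i m l''))
    have h3 : Continuous (fun b : Bs M => ((b i j l, b j m l', - b i m l'') :
      D.B (M.P i j l) × D.B (M.P j m l') × D.B (M.P i m l''))) := by fun_prop
    convert h2.preimage h3 using 1
    ext b
    simp only [mem_ofPred_eq, mem_preimage, map_neg]
    rw [add_neg_eq_zero]

section Rel

variable (R : Resn f g)

include R in
theorem mem_zSub_of_rel {b : Bs M} {q : Q.S ⊤} (h : (b, q) ∈ relSub f g M) : b ∈ zSub M := by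
  obtain ⟨c, -, hc⟩ := h
  dsimp only at hc
  refine ⟨fun i j l l' => ?_, fun i j m l l' l'' => ?_⟩
  · apply R.inj
    have h1 := congrArg (I.r (inf_le_left : V M i j l ⊓ V M i j l' ≤ _)) (hc i j l)
    have h2 := congrArg (I.r (inf_le_right : V M i j l ⊓ V M i j l' ≤ _)) (hc i j l')
    rw [← f.nat, F.r_r] at h1 h2
    rw [h1, h2]
    simp
  · apply R.inj
    have h1 := congrArg (I.r (inf_le_left.trans inf_le_left :
      V M i j l ⊓ V M j m l' ⊓ V M i m l'' ≤ _)) (hc i j l)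
    have h2 := congrArg (I.r (inf_le_left.trans inf_le_right :
      V M i j l ⊓ V M j m l' ⊓ V M i m l'' ≤ _)) (hc j m l')
    have h3 := congrArg (I.r (inf_le_right :
      V M i j l ⊓ V M j m l' ⊓ V M i m l'' ≤ _)) (hc i m l'')
    rw [← f.nat, F.r_r] at h1 h2 h3
    rw [map_add, h1, h2, h3]
    simp

include R in
theorem exists_rel_of_mem_zSub [Finite ι] (hU : ∀ x, ∃ i, x ∈ U i) {b : Bs M} (h : b ∈ zSub M) :
    ∃ q : Q.S ⊤, (b, q) ∈ relSub f g M := by
  obtain ⟨ha, hb⟩ := (mem_zSub M).1 h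
  -- glue the cocycle
  have h1 : ∀ i j, ∃ z : F.S (U i ⊓ U j), ∀ l,
      F.r (V_le_inf M i j l) z = F.r (V_le_car M i j l) (D.sec _ (b i j l)) := by
    intro i j
    refine F.glue' (fun l => V M i j l) (fun l => V_le_inf M i j l) ?_ _ ?_
    · intro x hx
      obtain ⟨l, hl⟩ := M.cov i j x hx
      exact ⟨l, hl, hx⟩
    · intro l l'
      rw [F.r_r, F.r_r]
      exact ha i j l l'
  choose z hz using h1
  have hzc : ∀ i j k (W : Opens T) (h₁ : W ≤ U i ⊓ U j) (h₂ : W ≤ U j ⊓ U k) (h₃ : W ≤ U i ⊓ U k),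
      F.r h₁ (z i j) + F.r h₂ (z j k) = F.r h₃ (z i k) := by
    intro i j k W h₁ h₂ h₃
    refine F.sep _ _ fun x hx => ?_
    obtain ⟨l, hl⟩ := M.cov i j x (h₁ hx)
    obtain ⟨l', hl'⟩ := M.cov j k x (h₂ hx)
    obtain ⟨l'', hl''⟩ := M.cov i k x (h₃ hx)
    refine ⟨W ⊓ (V M i j l ⊓ V M j k l' ⊓ V M i k l''), inf_le_left,
      ⟨hx, ⟨⟨⟨hl, h₁ hx⟩, ⟨hl', h₂ hx⟩⟩, ⟨hl'', h₃ hx⟩⟩⟩, ?_⟩
    have e1 := congrArg (F.r (inf_le_right.trans (inf_le_left.trans inf_le_left) :
      W ⊓ (V M i j l ⊓ V M j k l' ⊓ V M i k l'') ≤ _)) (hz i j l)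
    have e2 := congrArg (F.r (inf_le_right.trans (inf_le_left.trans inf_le_right) :
      W ⊓ (V M i j l ⊓ V M j k l' ⊓ V M i k l'') ≤ _)) (hz j k l')
    have e3 := congrArg (F.r (inf_le_right.trans inf_le_right :
      W ⊓ (V M i j l ⊓ V M j k l' ⊓ V M i k l'') ≤ _)) (hz i k l'')
    have e4 := congrArg (F.r (inf_le_right :
      W ⊓ (V M i j l ⊓ V M j k l' ⊓ V M i k l'') ≤ _)) (hb i j k l l' l'')
    rw [map_add] at e4
    rw [F.r_r] at e1 e2 e3 e4
    rw [F.r_r] at e1 e2 e3 e4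
    rw [F.r_r] at e4
    rw [map_add, F.r_r, F.r_r, F.r_r, e1, e2, e3]
    exact e4
  obtain ⟨c, hc⟩ := exists_cochain R.fl U (fun i j => f.app _ (z i j)) (by
    intro i j k W h₁ h₂ h₃
    rw [← f.nat, ← f.nat, ← f.nat, ← map_add, hzc i j k W h₁ h₂ h₃])
  obtain ⟨q, hq⟩ := Q.glue' (U := ⊤) U (fun i => le_top) (fun x _ => hU x) (fun i => g.app _ (c i)) (by
    intro i j
    have := congrArg (g.app _) (hc i j)
    rw [R.zero, map_sub, g.nat, g.nat] at this
    exact (sub_eq_zero.1 this.symm).symm)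
  refine ⟨q, c, fun i => (hq i).symm, fun i j l => ?_⟩
  rw [← hz, f.nat, hc, map_sub, I.r_r, I.r_r]

omit R in
theorem mem_range_of_rel_zero (hU : ∀ x, ∃ i, x ∈ U i) {q : Q.S ⊤}
    (h : ((0 : Bs M), q) ∈ relSub f g M) : q ∈ LinearMap.range (g.app ⊤) := by
  obtain ⟨c, hc1, hc2⟩ := h
  obtain ⟨w, hw⟩ := I.glue' (U := ⊤) U (fun i => le_top) (fun x _ => hU x) c (by
    intro i j
    refine I.sep' (fun l => V M i j l) (fun l => V_le_inf M i j l) (fun x hx => ?_) _ _ fun l => ?_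
    · obtain ⟨l, hl⟩ := M.cov i j x hx
      exact ⟨l, hl, hx⟩
    · have := hc2 i j l
      simp only [Pi.zero_apply, map_zero] at this
      rw [I.r_r, I.r_r]
      exact (sub_eq_zero.1 this.symm).symm)
  refine ⟨w, Q.sep' U (fun i => le_top) (fun x _ => hU x) _ _ fun i => ?_⟩
  rw [← g.nat, hw]
  exact hc1 i

theorem rel_zero_of_mem_range {q : Q.S ⊤} (h : q ∈ LinearMap.range (g.app ⊤)) :
    ((0 : Bs M), q) ∈ relSub f g M := by
  obtain ⟨w, rfl⟩ := h
  exact ⟨fun i => I.r le_top w, fun i => g.nat _ _, fun i j l => by simp⟩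

/-- The class of a cocycle. -/
theorem exists_cls [Finite ι] (hU : ∀ x, ∃ i, x ∈ U i) (R : Resn f g) :
    ∃ h : zSub M →ₗ[ℂ] Q.S ⊤ ⧸ LinearMap.range (g.app ⊤), ∀ (z : zSub M) (q : Q.S ⊤),
      (z.1, q) ∈ relSub f g M → h z = (LinearMap.range (g.app ⊤)).mkQ q := by
  obtain ⟨h, hh⟩ := exists_linearMap
    ((relSub f g M).comap ((zSub M).subtype.prodMap LinearMap.id)) (LinearMap.range (g.app ⊤))
    (fun z => exists_rel_of_mem_zSub M R hU z.2)
    (fun a ha => mem_range_of_rel_zero M hU ha)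
  exact ⟨h, fun z q hq => hh z q hq⟩

end Rel

section Trans

variable {M} {U' : ι → Opens T} {M' : Lvl D U'} (t : Trans M M')

/-- The restriction map between levels. -/
def trans : Bs M' →L[ℂ] Bs M :=
  ContinuousLinearMap.pi fun i => ContinuousLinearMap.pi fun j => ContinuousLinearMap.pi fun l =>
    (D.res (t.rel₁ i j l)) ∘L (D.res (t.rel₂ i j l)) ∘L
      (ContinuousLinearMap.proj (t.lam i j l) : (∀ l, D.B (M'.P i j l)) →L[ℂ] _) ∘L
        (ContinuousLinearMap.proj j : (∀ j l, D.B (M'.P i j l)) →L[ℂ] _) ∘L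
          (ContinuousLinearMap.proj i : Bs M' →L[ℂ] _)

theorem trans_apply (b : Bs M') (i j : ι) (l : M.L i j) :
    trans t b i j l = D.res (t.rel₁ i j l) (D.res (t.rel₂ i j l) (b i j (t.lam i j l))) := rfl

theorem isCompactOperator_trans [Finite ι] : IsCompactOperator (trans t) := by
  refine isCompactOperator_pi (fun i (b : Bs M') => trans t b i) fun i => ?_
  refine isCompactOperator_pi (fun j (b : Bs M') => trans t b i j) fun j => ?_
  refine isCompactOperator_pi (fun l (b : Bs M') => trans t b i j l) fun l => ?_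
  have h1 := (D.compact (t.rel₁ i j l)).comp_clm ((D.res (t.rel₂ i j l)) ∘L
      (ContinuousLinearMap.proj (t.lam i j l) : (∀ l, D.B (M'.P i j l)) →L[ℂ] _) ∘L
        (ContinuousLinearMap.proj j : (∀ j l, D.B (M'.P i j l)) →L[ℂ] _) ∘L
          (ContinuousLinearMap.proj i : Bs M' →L[ℂ] _))
  exact h1

theorem rel_trans (hUU' : ∀ i, U i ≤ U' i) {b : Bs M'} {q : Q.S ⊤} (h : (b, q) ∈ relSub f g M') :
    (trans t b, q) ∈ relSub f g M := by
  obtain ⟨c, hc1, hc2⟩ := h
  refine ⟨fun i => I.r (hUU' i) (c i), fun i => ?_, fun i j l => ?_⟩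
  · rw [g.nat, hc1, Q.r_r]
  · have hle : V M i j l ≤ V M' i j (t.lam i j l) :=
      le_inf ((V_le_car M i j l).trans ((D.le (t.rel₁ i j l)).trans (D.le (t.rel₂ i j l))))
        (le_inf ((V_le_left M i j l).trans (hUU' i)) ((V_le_right M i j l).trans (hUU' j)))
    have h1 := congrArg (I.r hle) (hc2 i j (t.lam i j l))
    rw [← f.nat, F.r_r, map_sub, I.r_r, I.r_r] at h1
    dsimp only
    rw [trans_apply, D.sec_res, D.sec_res, F.r_r, F.r_r, I.r_r, I.r_r]
    exact h1

end Trans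

/-- **Finiteness of `H¹`**, when the classes vanish on the discs. -/
theorem finite_H1' [CompactSpace T] (R : Resn f g) (D : DiscSys.{u, v, u} F)
    (hD : ∀ δ (q : Q.S ⊤), ∃ c : I.S (D.car δ), g.app _ c = Q.r le_top q) :
    Module.Finite ℂ (Q.S ⊤ ⧸ LinearMap.range (g.app ⊤)) := by
  classical
  -- a finite set of fourfold discs
  choose δ hδ0 hδ using D.cover
  obtain ⟨s, hs⟩ := isCompact_univ.elim_finite_subcover (fun x : T => (D.car (δ x 0) : Set T))
    (fun x => (D.car (δ x 0)).isOpen) (fun x _ => mem_iUnion.2 ⟨x, hδ0 x⟩)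
  let ι : Type u := s
  let W : Fin 4 → ι → D.Δ := fun k i => δ i.1 k
  let U : Fin 4 → ι → Opens T := fun k i => D.car (W k i)
  have hrel : ∀ (k : Fin 3) i, D.rel (W k.castSucc i) (W k.succ i) := fun k i => (hδ i.1 k).1
  have hcl : ∀ (k : Fin 3) i, closure (U k.castSucc i : Set T) ⊆ U k.succ i :=
    fun k i => (hδ i.1 k).2
  have hle : ∀ (k : Fin 3) i, U k.castSucc i ≤ U k.succ i := fun k i => D.le (hrel k i)
  have hU0 : ∀ x, ∃ i, x ∈ U 0 i := by
    intro x
    obtain ⟨y, hy, hxy⟩ := mem_iUnion₂.1 (hs (mem_univ x))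
    exact ⟨⟨y, hy⟩, hxy⟩
  have hle01 : ∀ i, U 0 i ≤ U 1 i := fun i => hle 0 i
  have hle12 : ∀ i, U 1 i ≤ U 2 i := fun i => hle 1 i
  have hle23 : ∀ i, U 2 i ≤ U 3 i := fun i => hle 2 i
  have hrel01 : ∀ i, D.rel (W 0 i) (W 1 i) := fun i => hrel 0 i
  have hU1 : ∀ x, ∃ i, x ∈ U 1 i := fun x => (hU0 x).imp fun i hi => hle01 i hi
  have hU2 : ∀ x, ∃ i, x ∈ U 2 i := fun x => (hU1 x).imp fun i hi => hle12 i hi
  -- the levels
  let M3 : Lvl D (U 3) :=
    { L := fun _ _ => PUnit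
      P := fun i _ _ => W 3 i
      cov := fun i j x hx => ⟨PUnit.unit, hx.1⟩ }
  obtain ⟨M2, ⟨t2⟩⟩ := exists_refine (U := U 2) (U' := U 3) (fun i => hcl 2 i) M3
  obtain ⟨M1, ⟨t1⟩⟩ := exists_refine (U := U 1) (U' := U 2) (fun i => hcl 1 i) M2
  obtain ⟨M0, ⟨t0⟩⟩ := exists_refine (U := U 0) (U' := U 1) (fun i => hcl 0 i) M1
  obtain ⟨h₂, hh₂⟩ := exists_cls M2 hU2 R
  obtain ⟨h₁, hh₁⟩ := exists_cls M1 hU1 R
  obtain ⟨h₀, hh₀⟩ := exists_cls M0 hU0 R
  have cs2 : CompleteSpace (zSub M2) := (isClosed_zSub M2).completeSpace_coe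
  have cs1 : CompleteSpace (zSub M1) := (isClosed_zSub M1).completeSpace_coe
  have m2 : ∀ z : zSub M2, trans t1 z.1 ∈ zSub M1 := fun z => by
    obtain ⟨q, hq⟩ := exists_rel_of_mem_zSub M2 R hU2 z.2
    exact mem_zSub_of_rel M1 R (rel_trans t1 hle12 hq)
  have m1 : ∀ z : zSub M1, trans t0 z.1 ∈ zSub M0 := fun z => by
    obtain ⟨q, hq⟩ := exists_rel_of_mem_zSub M1 R hU1 z.2
    exact mem_zSub_of_rel M0 R (rel_trans t0 hle01 hq)
  let r₂ : zSub M2 →L[ℂ] zSub M1 := (trans t1 ∘L (zSub M2).subtypeL).codRestrict (zSub M1) m2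
  let r₁ : zSub M1 →L[ℂ] zSub M0 := (trans t0 ∘L (zSub M1).subtypeL).codRestrict (zSub M0) m1
  have hr₂ : IsCompactOperator r₂ := by
    have h1 : IsCompactOperator (trans t1 ∘L (zSub M2).subtypeL : zSub M2 →L[ℂ] Bs M1) :=
      (isCompactOperator_trans t1).comp_clm _
    exact h1.codRestrict m2 (isClosed_zSub M1)
  -- the space of coboundaries
  let G : Submodule ℂ ((∀ i : ι, D.B (W 0 i)) × Bs M0) :=
    { carrier := {p | ∀ i j l, F.r (V_le_car M0 i j l) (D.sec _ (p.2 i j l)) =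
        F.r (V_le_right M0 i j l) (D.sec _ (p.1 j)) - F.r (V_le_left M0 i j l) (D.sec _ (p.1 i))}
      zero_mem' := by simp
      add_mem' := by
        intro p p' hp hp' i j l
        have h1 := hp i j l
        have h2 := hp' i j l
        simp only [Prod.fst_add, Prod.snd_add, Pi.add_apply, map_add] at *
        rw [h1, h2]
        abel
      smul_mem' := by
        intro a p hp i j l
        have h1 := hp i j l
        simp only [Prod.smul_fst, Prod.smul_snd, Pi.smul_apply, map_smul] at *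
        rw [h1, smul_sub] }
  have hGmem : ∀ p : (∀ i : ι, D.B (W 0 i)) × Bs M0, p ∈ G ↔ ∀ i j l, F.r (V_le_car M0 i j l) (D.sec _ (p.2 i j l)) =
        F.r (V_le_right M0 i j l) (D.sec _ (p.1 j)) - F.r (V_le_left M0 i j l) (D.sec _ (p.1 i)) :=
    fun p => Iff.rfl
  have hGcl : IsClosed (G : Set ((∀ i : ι, D.B (W 0 i)) × Bs M0)) := by
    have e : (G : Set ((∀ i : ι, D.B (W 0 i)) × Bs M0)) = ⋂ i, ⋂ j, ⋂ l,
        {p : (∀ i : ι, D.B (W 0 i)) × Bs M0 | F.r (V_le_car M0 i j l) (D.sec _ (p.2 i j l)) =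
        F.r (V_le_right M0 i j l) (D.sec _ (p.1 j)) -
          F.r (V_le_left M0 i j l) (D.sec _ (p.1 i))} := by
      ext p
      simp only [SetLike.mem_coe, hGmem, mem_iInter, mem_ofPred_eq]
    rw [e]
    refine isClosed_iInter fun i => isClosed_iInter fun j => isClosed_iInter fun l => ?_
    have h2 := D.closed (M0.P i j l) (W 0 i) (W 0 j) (V M0 i j l)
      (V_le_car M0 i j l) (V_le_left M0 i j l) (V_le_right M0 i j l)
    have h3 : Continuous (fun p : (∀ i : ι, D.B (W 0 i)) × Bs M0 => ((p.2 i j l, p.1 i, - p.1 j) :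
      D.B (M0.P i j l) × D.B (W 0 i) × D.B (W 0 j))) := by fun_prop
    convert h2.preimage h3 using 1
    ext p
    simp only [mem_ofPred_eq, mem_preimage, map_neg]
    rw [add_neg_eq_zero, eq_sub_iff_add_eq]
  have csG : CompleteSpace G := hGcl.completeSpace_coe
  -- elements of `G` give classes zero
  have hG0 : ∀ p : G, (p.1.2, (0 : Q.S ⊤)) ∈ relSub f g M0 := by
    rintro ⟨⟨b, w⟩, hp⟩
    refine ⟨fun i => f.app _ (D.sec _ (b i)), fun i => by rw [R.zero, map_zero], fun i j l => ?_⟩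
    have := (hGmem _).1 hp i j l
    dsimp only at this ⊢
    rw [this, map_sub, f.nat, f.nat]
  have mG : ∀ p : G, p.1.2 ∈ zSub M0 := fun p => mem_zSub_of_rel M0 R (hG0 p)
  let gG : G →L[ℂ] zSub M0 :=
    (ContinuousLinearMap.snd ℂ (∀ i : ι, D.B (W 0 i)) (Bs M0) ∘L G.subtypeL).codRestrict
      (zSub M0) mG
  refine finite_of_system r₁ r₂ hr₂ gG h₀ h₁ h₂ ?_ ?_ ?_ ?_ ?_
  · intro z
    obtain ⟨q, hq⟩ := exists_rel_of_mem_zSub M1 R hU1 z.2
    rw [hh₁ z q hq]
    exact hh₀ _ q (rel_trans t0 hle01 hq)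
  · intro z
    obtain ⟨q, hq⟩ := exists_rel_of_mem_zSub M2 R hU2 z.2
    rw [hh₂ z q hq]
    exact hh₁ _ q (rel_trans t1 hle12 hq)
  · -- surjectivity
    intro y
    obtain ⟨q, rfl⟩ := Submodule.mkQ_surjective _ y
    have h1 : ∀ i, ∃ c : I.S (U 3 i), g.app _ c = Q.r le_top q := fun i => hD _ _
    choose c hc using h1
    have h2 : ∀ i j, ∃ z : F.S (U 3 i ⊓ U 3 j),
        f.app _ z = I.r inf_le_right (c j) - I.r inf_le_left (c i) := by
      intro i j
      refine R.ex _ _ ?_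
      rw [map_sub, g.nat, g.nat, hc, hc, Q.r_r, Q.r_r, sub_self]
    choose z hz using h2
    have h3 : ∀ i j (l : M2.L i j), ∃ b : D.B (M2.P i j l),
        D.sec _ b = F.r (D.le (t2.rel₁ i j l)) (F.r (t2.hmid i j l) (z i j)) :=
      fun i j l => D.lift (t2.rel₁ i j l) _
    choose b hb using h3
    have hbq : (b, q) ∈ relSub f g M2 := by
      refine ⟨fun i => I.r (hle23 i) (c i), fun i => ?_, fun i j l => ?_⟩
      · rw [g.nat, hc, Q.r_r]
      · dsimp only
        rw [hb, F.r_r, F.r_r, f.nat, hz, map_sub, I.r_r, I.r_r, I.r_r, I.r_r]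
    exact ⟨⟨b, mem_zSub_of_rel M2 R hbq⟩, hh₂ _ q hbq⟩
  · intro p
    rw [hh₀ (gG p) 0 (hG0 p), map_zero]
  · -- the kernel
    intro z hz
    obtain ⟨q, hq⟩ := exists_rel_of_mem_zSub M1 R hU1 z.2
    have hq0 : q ∈ LinearMap.range (g.app ⊤) := by
      have := hh₁ z q hq
      rw [hz] at this
      simpa using this.symm
    have hz0 : (z.1, (0 : Q.S ⊤)) ∈ relSub f g M1 := by
      have := (relSub f g M1).sub_mem hq (rel_zero_of_mem_range (f := f) M1 hq0)
      simpa using this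
    obtain ⟨c, hc1, hc2⟩ := hz0
    have h1 : ∀ i, ∃ s : F.S (U 1 i), f.app _ s = c i := by
      intro i
      refine R.ex _ _ ?_
      rw [hc1, map_zero]
    choose s hs' using h1
    have h2 : ∀ i, ∃ b : D.B (W 0 i), D.sec _ b = F.r (hle01 i) (s i) := fun i =>
      D.lift (hrel01 i) (s i)
    choose b hb using h2
    have hp : ((b, trans t0 z.1) : (∀ i : ι, D.B (W 0 i)) × Bs M0) ∈ G := by
      rw [hGmem]
      intro i j l
      apply R.inj
      have hle' : V M0 i j l ≤ V M1 i j (t0.lam i j l) :=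
        le_inf ((V_le_car M0 i j l).trans ((D.le (t0.rel₁ i j l)).trans (D.le (t0.rel₂ i j l))))
          (le_inf ((V_le_left M0 i j l).trans (hle01 i)) ((V_le_right M0 i j l).trans (hle01 j)))
      have h1 := congrArg (I.r hle') (hc2 i j (t0.lam i j l))
      rw [← f.nat, F.r_r, map_sub, I.r_r, I.r_r] at h1
      dsimp only
      rw [trans_apply, D.sec_res, D.sec_res, F.r_r, F.r_r, map_sub, hb, hb, F.r_r, F.r_r,
        f.nat _ (s j), f.nat _ (s i), hs', hs']
      exact h1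
    exact ⟨⟨_, hp⟩, rfl⟩

/-- **Finiteness of `H¹`.** -/
theorem finite_H1 [CompactSpace T] (R : Resn f g) (D : DiscSys.{u, v, u} F)
    (hD : ∀ δ, Function.Surjective (g.app (D.car δ))) :
    Module.Finite ℂ (Q.S ⊤ ⧸ LinearMap.range (g.app ⊤)) :=
  finite_H1' R D fun δ _ => hD δ _

end Groth.Agent.Gaga.H335.CechFin
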