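import Groth.Agent.Gaga.H335.Chart
import Groth.Agent.Gaga.H294.ChartAn

/-!
# Charts from open immersions of affine spaces

`Chart.ofOpenImmersion j` for `j : 𝔸ⁿ ⟶ X` an open immersion over `ℂ`.
-/

set_option autoImplicit false

open CategoryTheory AlgebraicGeometry Topology TopologicalSpace Opposite Filter Set

noncomputable section

namespace Groth.Agent.Gaga.H335.ChartOpen

open Groth.Agent.Gaga.H990.ChartAt Groth.Agent.Gaga.H277 Groth.Agent.Gaga.H294.ChartAn
  Groth.Agent.Gaga.H294.ThmA

variable {X : Scheme.{0}} [X.Over An.SC] {n : ℕ} (j : 𝔸(Fin n; An.SC) ⟶ X) [j.IsOver An.SC]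
  [IsOpenImmersion j]

/-- The chart given by an open immersion of an affine space. -/
def ofOpenImmersion : Chart X :=
  Chart.ofHol n (σ j) (isOpenEmbedding_σ j) (by
    intro V g hV
    have key : ∀ s : (holAb X).obj.obj (op V), evW j V s = fun w => ext0 V (fn s) (σ j w) := by
      intro s
      funext w
      by_cases hw : σ j w ∈ V
      · rw [evW_of_mem j s hw, ext0_of_mem _ hw]
      · have e1 : evW j V s w = 0 := dif_neg hw
        have e2 : ext0 V (fn s) (σ j w) = 0 := dif_neg hw
        exact e1.trans e2.symm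
    constructor
    · intro hg z hz
      obtain ⟨s, hs⟩ := exists_fn g hg
      have h1 := differentiableAt_evW j V s z hz
      rw [key] at h1
      have h2 : fn s = g := funext hs
      rw [h2] at h1
      exact h1
    · intro h
      obtain ⟨s, hs⟩ := (holChart j).ev_surj V hV (fun w => ext0 V g (σ j w))
        (fun z hz => (h z hz).differentiableWithinAt)
      have h2 : fn s = g := by
        funext x
        obtain ⟨z, hz⟩ := hV x.1 x.2
        have hz' : σ j z ∈ V := by
          rw [hz]
          exact x.2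
        have h3 := hs z hz'
        have h4 : (holChart j).ev V s z = fn s ⟨σ j z, hz'⟩ := evW_of_mem j s hz'
        rw [h4, ext0_of_mem _ hz'] at h3
        have e : (⟨σ j z, hz'⟩ : V) = x := Subtype.ext hz
        rwa [e] at h3
      rw [← h2]
      exact fn_pred s)

theorem ofOpenImmersion_pt (z : Fin n → ℂ) :
    (ofOpenImmersion j).pt z = An.Pts.map j (AffSp.point z) := rfl

/-- Complex points in the image of an open immersion lift. -/
theorem exists_map_eq {Y X : Scheme.{0}} [Y.Over An.SC] [X.Over An.SC] (j : Y ⟶ X) [j.IsOver An.SC]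
    [IsOpenImmersion j] (x : An.Pts X) (h : x.pt ∈ j.opensRange) : ∃ y : An.Pts Y, An.Pts.map j y = x := by
  have h1 : Set.range x.1 ⊆ Set.range j := by
    rintro _ ⟨p, rfl⟩
    rw [An.eq_cpt p]
    exact h
  refine ⟨⟨IsOpenImmersion.lift j x.1 h1, ?_⟩, Subtype.ext (IsOpenImmersion.lift_fac j x.1 h1)⟩
  have h2 := IsOpenImmersion.lift_fac j x.1 h1
  rw [← comp_over j An.SC, ← Category.assoc, h2]
  exact x.2

/-- The points of the chart. -/
theorem mem_range_ofOpenImmersion (x : An.Pts X) (h : x.pt ∈ j.opensRange) :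
    ∃ z, (ofOpenImmersion j).pt z = x := by
  obtain ⟨y, hy⟩ := exists_map_eq j x h
  refine ⟨AffSp.coords (n := n) y, ?_⟩
  change An.Pts.map j (AffSp.point (AffSp.coords (n := n) y)) = x
  rw [AffSp.point_coords (n := n) y, hy]

end Groth.Agent.Gaga.H335.ChartOpen
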