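import Groth.Agent.Gaga.H335.CSh
import Groth.Agent.Gaga.H335.BanachFin

/-!
# Disc systems, flasque cocycles, levels

* `exists_cochain` : over a flasque sheaf every 1-cocycle of a finite family is a coboundary.
* `DiscSys F` : a family of "discs" `δ` with Banach spaces `B δ → F(δ)`, compact restriction maps, lifting and
  closedness properties.
* `Lvl D U` : for a family `U i` of opens, finite families of discs covering the `U i ⊓ U j`.
* `Lvl.exists_refine`: shrinking the `U i`, one can refine a level.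
-/

set_option autoImplicit false
universe u v w

open TopologicalSpace Set

namespace Groth.Agent.Gaga.H335.Discs

open CSh

variable {T : Type u} [TopologicalSpace T]

/-- Flasque (elementwise): sections extend to the whole space. -/
def Flasque (I : Sh.{u, v} T) : Prop :=
  ∀ U : Opens T, Function.Surjective (I.r (le_top : U ≤ ⊤))

/-- Over a flasque sheaf every 1-cocycle of a finite family is a coboundary. -/
theorem exists_cochain {I : Sh.{u, v} T} (hI : Flasque I) {ι : Type*} [Finite ι] (U : ι → Opens T)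
    (z : ∀ i j, I.S (U i ⊓ U j))
    (hz : ∀ i j k (W : Opens T) (h₁ : W ≤ U i ⊓ U j) (h₂ : W ≤ U j ⊓ U k) (h₃ : W ≤ U i ⊓ U k),
      I.r h₁ (z i j) + I.r h₂ (z j k) = I.r h₃ (z i k)) :
    ∃ c : ∀ i, I.S (U i), ∀ i j,
      z i j = I.r inf_le_right (c j) - I.r inf_le_left (c i) := by
  classical
  have hz0 : ∀ i (W : Opens T) (h : W ≤ U i ⊓ U i), I.r h (z i i) = 0 := by
    intro i W h
    have := hz i i i W h h h
    simpa using this
  have hzs : ∀ i j (W : Opens T) (h : W ≤ U i ⊓ U j) (h' : W ≤ U j ⊓ U i),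
      I.r h' (z j i) = - I.r h (z i j) := by
    intro i j W h h'
    have := hz i j i W h h' (le_inf (h.trans inf_le_left) (h.trans inf_le_left))
    rw [hz0] at this
    exact (neg_eq_of_add_eq_zero_right this).symm
  suffices H : ∀ s : Finset ι, ∃ c : ∀ i, I.S (U i), ∀ i ∈ s, ∀ j ∈ s,
      z i j = I.r inf_le_right (c j) - I.r inf_le_left (c i) by
    have := Fintype.ofFinite ι
    obtain ⟨c, hc⟩ := H Finset.univ
    exact ⟨c, fun i j => hc i (Finset.mem_univ _) j (Finset.mem_univ _)⟩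
  intro s
  induction s using Finset.induction_on with
  | empty => exact ⟨fun i => 0, by simp⟩
  | insert k s hk ih =>
    obtain ⟨c, hc⟩ := ih
    -- glue the sections `c i + z i k`
    obtain ⟨w, hw⟩ := I.glue' (ι := s) (U := ⨆ i : s, U i ⊓ U k) (fun i => U i ⊓ U k)
      (fun i => le_iSup (fun i : s => U i ⊓ U k) i)
      (fun x hx => Opens.mem_iSup.1 hx)
      (fun i => I.r inf_le_left (c i) + z i k) (by
        intro i j
        rw [map_add, map_add, I.r_r, I.r_r]
        have h1 := hz i j k ((U i ⊓ U k) ⊓ (U j ⊓ U k))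
          (le_inf (inf_le_left.trans inf_le_left) (inf_le_right.trans inf_le_left))
          inf_le_right inf_le_left
        have h2 := hc i i.2 j j.2
        rw [h2, map_sub, I.r_r, I.r_r] at h1
        rw [← h1]
        abel)
    obtain ⟨w', hw'⟩ := hI _ w
    let ck : I.S (U k) := I.r le_top w'
    have hck : ∀ i : s, I.r inf_le_right ck = I.r inf_le_left (c i) + z i k := by
      intro i
      rw [← hw i, ← hw', I.r_r, I.r_r]
    let c' : ∀ i, I.S (U i) := Function.update c k ck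
    have hc'k : c' k = ck := Function.update_self _ _ _
    have hc'i : ∀ i ∈ s, c' i = c i := by
      intro i hi
      have : i ≠ k := fun h => hk (h ▸ hi)
      exact Function.update_of_ne this _ _
    have hkk : z k k = I.r inf_le_right (c' k) - I.r inf_le_left (c' k) := by
      have := hz0 k _ le_rfl
      rw [I.r_self] at this
      rw [this]
      exact (sub_eq_zero.2 rfl).symm
    have hks : ∀ i ∈ s, z i k = I.r inf_le_right (c' k) - I.r inf_le_left (c' i) := by
      intro i hi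
      rw [hc'k, hc'i i hi, hck ⟨i, hi⟩]
      abel
    have hsk : ∀ j ∈ s, z k j = I.r inf_le_right (c' j) - I.r inf_le_left (c' k) := by
      intro j hj
      have h2 := hzs j k (U k ⊓ U j) (le_of_eq (inf_comm _ _)) le_rfl
      rw [I.r_self] at h2
      have h3 := congrArg (I.r (le_of_eq (inf_comm (U k) (U j)))) (hks j hj)
      rw [map_sub, I.r_r, I.r_r] at h3
      rw [h2, h3]
      abel
    refine ⟨c', fun i hi j hj => ?_⟩
    rcases Finset.mem_insert.1 hi with hik | hi'
    · rcases Finset.mem_insert.1 hj with hjk | hj'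
      · rw [hik, hjk]
        exact hkk
      · rw [hik]
        exact hsk j hj'
    · rcases Finset.mem_insert.1 hj with hjk | hj'
      · rw [hjk]
        exact hks i hi'
      · rw [hc'i i hi', hc'i j hj']
        exact hc i hi' j hj'

/-- A disc system for the sheaf `F`. -/
structure DiscSys (F : Sh.{u, v} T) where
  /-- the discs -/
  Δ : Type w
  /-- the underlying open set -/
  car : Δ → Opens T
  /-- the Banach space of bounded lifts of sections over the disc -/
  B : Δ → Type w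
  [nacg : ∀ δ, NormedAddCommGroup (B δ)]
  [ns : ∀ δ, NormedSpace ℂ (B δ)]
  [cs : ∀ δ, CompleteSpace (B δ)]
  /-- the section attached to a lift -/
  sec : ∀ δ, B δ →ₗ[ℂ] F.S (car δ)
  /-- relative compactness -/
  rel : Δ → Δ → Prop
  le : ∀ {δ' δ : Δ}, rel δ' δ → car δ' ≤ car δ
  /-- restriction maps -/
  res : ∀ {δ' δ : Δ}, rel δ' δ → (B δ →L[ℂ] B δ')
  compact : ∀ {δ' δ : Δ} (h : rel δ' δ), IsCompactOperator (res h)
  sec_res : ∀ {δ' δ : Δ} (h : rel δ' δ) (b : B δ), sec δ' (res h b) = F.r (le h) (sec δ b)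
  lift : ∀ {δ' δ : Δ} (h : rel δ' δ) (s : F.S (car δ)), ∃ b : B δ', sec δ' b = F.r (le h) s
  closed : ∀ (δ₁ δ₂ δ₃ : Δ) (V : Opens T) (h₁ : V ≤ car δ₁) (h₂ : V ≤ car δ₂) (h₃ : V ≤ car δ₃),
    IsClosed {b : B δ₁ × B δ₂ × B δ₃ |
      F.r h₁ (sec δ₁ b.1) + F.r h₂ (sec δ₂ b.2.1) + F.r h₃ (sec δ₃ b.2.2) = 0}
  basis : ∀ (δ₁ : Δ) (x : T), x ∈ car δ₁ → ∀ U : Opens T, x ∈ U →
    ∃ δ' δ'' : Δ, x ∈ car δ' ∧ rel δ' δ'' ∧ rel δ'' δ₁ ∧ car δ'' ≤ U
  cover : ∀ x : T, ∃ δ : Fin 4 → Δ, x ∈ car (δ 0) ∧ ∀ k : Fin 3,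
    rel (δ k.castSucc) (δ k.succ) ∧ closure (car (δ k.castSucc) : Set T) ⊆ car (δ k.succ)

attribute [instance] DiscSys.nacg DiscSys.ns DiscSys.cs

variable {F : Sh.{u, v} T} (D : DiscSys.{u, v, w} F)

/-- A finite family of discs covering the pairwise intersections. -/
structure Lvl {ι : Type w} (U : ι → Opens T) where
  /-- index types -/
  L : ι → ι → Type w
  [fin : ∀ i j, Fintype (L i j)]
  /-- the discs -/
  P : ∀ i j, L i j → D.Δ
  cov : ∀ i j, ∀ x ∈ U i ⊓ U j, ∃ l, x ∈ D.car (P i j l)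

attribute [instance] Lvl.fin

variable {D}

/-- A refinement from one level to the next one. -/
structure Trans {ι : Type w} {U U' : ι → Opens T} (M : Lvl D U) (M' : Lvl D U') where
  /-- the index map -/
  lam : ∀ i j, M.L i j → M'.L i j
  /-- intermediate discs -/
  mid : ∀ i j, M.L i j → D.Δ
  rel₁ : ∀ i j l, D.rel (M.P i j l) (mid i j l)
  rel₂ : ∀ i j l, D.rel (mid i j l) (M'.P i j (lam i j l))
  hmid : ∀ i j l, D.car (mid i j l) ≤ U' i ⊓ U' j

/-- Existence of refinements. -/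
theorem exists_refine [CompactSpace T] {ι : Type w} {U U' : ι → Opens T}
    (h : ∀ i, closure (U i : Set T) ⊆ U' i) (M' : Lvl D U') :
    ∃ M : Lvl D U, Nonempty (Trans M M') := by
  classical
  have key : ∀ i j, ∃ (L : Type w) (_ : Fintype L) (P mid : L → D.Δ) (lam : L → M'.L i j),
      (∀ x ∈ U i ⊓ U j, ∃ l, x ∈ D.car (P l)) ∧ (∀ l, D.rel (P l) (mid l)) ∧
      (∀ l, D.rel (mid l) (M'.P i j (lam l))) ∧ (∀ l, D.car (mid l) ≤ U' i ⊓ U' j) := by
    intro i j
    let K : Set T := closure (U i : Set T) ∩ closure (U j : Set T)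
    have hK : IsCompact K := (isClosed_closure.inter isClosed_closure).isCompact
    have hKU : ∀ x ∈ K, x ∈ U' i ⊓ U' j := fun x hx => ⟨h i hx.1, h j hx.2⟩
    have h1 : ∀ x : K, ∃ (l : M'.L i j) (δ' δ'' : D.Δ), x.1 ∈ D.car δ' ∧ D.rel δ' δ'' ∧
        D.rel δ'' (M'.P i j l) ∧ D.car δ'' ≤ U' i ⊓ U' j := by
      intro x
      obtain ⟨l, hl⟩ := M'.cov i j x.1 (hKU x.1 x.2)
      obtain ⟨δ', δ'', h1, h2, h3, h4⟩ := D.basis _ x.1 hl (U' i ⊓ U' j) (hKU x.1 x.2)
      exact ⟨l, δ', δ'', h1, h2, h3, h4⟩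
    choose l δ' δ'' h1 h2 h3 h4 using h1
    obtain ⟨t, ht⟩ := hK.elim_finite_subcover (fun x : K => (D.car (δ' x) : Set T))
      (fun x => (D.car (δ' x)).isOpen) (fun x hx => mem_iUnion.2 ⟨⟨x, hx⟩, h1 ⟨x, hx⟩⟩)
    let e := Fintype.equivFin t
    refine ⟨ULift.{w} (Fin (Fintype.card t)), inferInstance, fun a => δ' (e.symm a.down).1,
      fun a => δ'' (e.symm a.down).1, fun a => l (e.symm a.down).1, ?_, ?_, ?_, ?_⟩
    · intro x hx
      have hxK : x ∈ K := ⟨subset_closure hx.1, subset_closure hx.2⟩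
      obtain ⟨y, hy, hxy⟩ := mem_iUnion₂.1 (ht hxK)
      exact ⟨⟨e ⟨y, hy⟩⟩, by simpa using hxy⟩
    · exact fun a => h2 _
    · exact fun a => h3 _
    · exact fun a => h4 _
  choose L hL P mid lam h1 h2 h3 h4 using key
  exact ⟨{ L := L, fin := hL, P := P, cov := h1 }, ⟨{ lam := lam, mid := mid, rel₁ := h2, rel₂ := h3, hmid := h4 }⟩⟩

end Groth.Agent.Gaga.H335.Discs
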