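import Groth.Agent.Gaga.H981.LC

/-!
# Closedness of stalk conditions, general form

`isClosed_of_mem`: as `H981.LC.isClosed_preimage_submodule`, for a linear map `Γ : F → (ι → R)` such that
all the conditions `Γ f i ∈ 𝔪ᵏ` are closed.
-/

set_option autoImplicit false

open Filter Set Topology IsLocalRing

namespace Groth.Agent.Gaga.H335.LCGen

open Groth.Agent.Gaga.H981.LC

variable {𝕜 : Type*} [NontriviallyNormedField 𝕜] [CompleteSpace 𝕜]

/-- Closedness of stalk conditions. -/
theorem isClosed_of_mem {F : Type*} [AddCommGroup F] [Module 𝕜 F] [TopologicalSpace F]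
    [IsTopologicalAddGroup F] [ContinuousSMul 𝕜 F]
    {R : Type*} [CommRing R] [IsLocalRing R] [IsNoetherianRing R] [Algebra 𝕜 R]
    {ι : Type*} [Finite ι] (Γ : F →ₗ[𝕜] (ι → R))
    (hfin : ∀ k : ℕ, Module.Finite 𝕜 (R ⧸ maximalIdeal R ^ k))
    (hcl : ∀ (i : ι) (k : ℕ), IsClosed {f : F | Γ f i ∈ maximalIdeal R ^ k})
    (M : Submodule R (ι → R)) :
    IsClosed {f : F | Γ f ∈ M} := by
  have := Fintype.ofFinite ι
  have key : ∀ k : ℕ, IsClosed ((((M ⊔ (maximalIdeal R ^ k) • (⊤ : Submodule R (ι → R))).restrictScalars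
      𝕜).comap Γ : Submodule 𝕜 F) : Set F) := by
    intro k
    let π : F →ₗ[𝕜] (ι → R ⧸ maximalIdeal R ^ k) :=
      ((Ideal.Quotient.mkₐ 𝕜 (maximalIdeal R ^ k)).toLinearMap.compLeft ι) ∘ₗ Γ
    have hN : ∀ f : F, f ∈ LinearMap.ker π ↔ ∀ i, Γ f i ∈ maximalIdeal R ^ k := by
      intro f
      rw [LinearMap.mem_ker, funext_iff]
      refine forall_congr' fun i => ?_
      exact Ideal.Quotient.eq_zero_iff_mem
    have h1 : IsClosed ((LinearMap.ker π : Submodule 𝕜 F) : Set F) := by
      have : ((LinearMap.ker π : Submodule 𝕜 F) : Set F) =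
          ⋂ i, {f : F | Γ f i ∈ maximalIdeal R ^ k} := by
        ext f
        simp only [SetLike.mem_coe, mem_iInter]
        exact hN f
      rw [this]
      exact isClosed_iInter fun i => hcl i k
    have h2 : FiniteDimensional 𝕜 (F ⧸ LinearMap.ker π) := by
      have := hfin k
      exact Module.Finite.equiv π.quotKerEquivRange.symm
    refine isClosed_of_le _ _ h1 fun f hf => ?_
    rw [hN] at hf
    exact Submodule.mem_sup_right (mem_smul_top _ _ hf)
  have h3 : {f : F | Γ f ∈ M} =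
      ⋂ k : ℕ, ((((M ⊔ (maximalIdeal R ^ k) • (⊤ : Submodule R (ι → R))).restrictScalars
      𝕜).comap Γ : Submodule 𝕜 F) : Set F) := by
    ext f
    simp only [mem_iInter]
    change Γ f ∈ M ↔ _
    conv_lhs => rw [eq_iInf_sup M, Submodule.mem_iInf]
    exact Iff.rfl
  rw [h3]
  exact isClosed_iInter key

end Groth.Agent.Gaga.H335.LCGen
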