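import Groth.Agent.Gaga.H335.OfMod
import Groth.Agent.Gaga.H335.LCGen
import Groth.Agent.Gaga.H335.CechFin

/-!
# The disc system of an analytic module with good local presentations

`LocPres N g x` (for a morphism `g : I ⟶ Q`, to be used for `0 → N → I → Q → 0`): a chart, an open set `D` of
`ℂⁿ` and sections `e` over its image such that sections of `N` near a closed polydisc in `D` are combinations of
the `e i` near the polydisc, and sections of `Q` lift to `I` near the polydisc.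

`discSys` : the disc system; `finite_of_locPres` : the finiteness theorem for such modules.
-/

set_option autoImplicit false

open CategoryTheory AlgebraicGeometry Topology TopologicalSpace Opposite Filter Set

noncomputable section

namespace Groth.Agent.Gaga.H335.ModDiscs

open Groth.Agent.Gaga.H990.ChartAt Groth.Agent.Gaga.H990.Stalk Groth.Agent.Gaga.H975.ModSec
open Groth.Agent.Gaga.H335.Chart Groth.Agent.Gaga.H335.CSh Groth.Agent.Gaga.H335.OfMod
open Groth.Agent.Gaga.H335.Discs Groth.Agent.Gaga.H981.BH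
open Metric (ball closedBall)

variable {X : Scheme.{0}} [X.Over An.SC]

/-- Good local presentations near `x`. -/
structure LocPres (N : Mod (An.hol X)) {I Q : Mod (An.hol X)} (g : I ⟶ Q) (x : An.Pts X) where
  /-- the chart -/
  c : Chart X
  /-- the open set -/
  D : Opens (Fin c.n → ℂ)
  hx : x ∈ c.im D
  /-- the number of generators -/
  q : ℕ
  /-- the generators -/
  e : Fin q → Sec N (c.im D)
  gen : ∀ (a : Fin c.n → ℂ) (r : ℝ), 0 < r → closedBall a r ⊆ D →
    ∀ (W : Opens (An.top X)) (hW : W ≤ c.im D), (∀ z ∈ closedBall a r, c.pt z ∈ W) →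
    ∀ s : Sec N W, ∃ (W' : Opens (An.top X)) (hW' : W' ≤ W), (∀ z ∈ closedBall a r, c.pt z ∈ W') ∧
      ∃ h : Fin q → O (An.hol X) W', res N hW' s = ∑ i, h i • res N (hW'.trans hW) (e i)
  van : ∀ (a : Fin c.n → ℂ) (r : ℝ), 0 < r → closedBall a r ⊆ D → ∀ ξ : Sec Q ⊤,
    ∃ (W : Opens (An.top X)), (∀ z ∈ closedBall a r, c.pt z ∈ W) ∧
      ∃ t : Sec I W, app g W t = res Q le_top ξ

variable {N I Q : Mod (An.hol X)} {g : I ⟶ Q} (P : ∀ x, LocPres N g x)

/-- The discs. -/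
structure Disc where
  /-- the index of the local presentation -/
  x : An.Pts X
  /-- the centre -/
  a : Fin (P x).c.n → ℂ
  /-- the radius -/
  r : ℝ
  pos : 0 < r
  sub : closedBall a r ⊆ (P x).D

variable {P}

namespace Disc

/-- The open polydisc in `ℂⁿ`. -/
def bl (δ : Disc P) : Opens (Fin (P δ.x).c.n → ℂ) := ⟨ball δ.a δ.r, Metric.isOpen_ball⟩

theorem bl_le (δ : Disc P) : δ.bl ≤ (P δ.x).D := fun _ hz => δ.sub (Metric.ball_subset_closedBall hz)

/-- The open subset of `X(ℂ)`. -/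
abbrev car (δ : Disc P) : Opens (An.top X) := (P δ.x).c.im δ.bl

theorem car_le (δ : Disc P) : δ.car ≤ (P δ.x).c.im (P δ.x).D := (P δ.x).c.im_mono δ.bl_le

/-- The Banach space. -/
abbrev B (δ : Disc P) : Type := Fin (P δ.x).q → BH (δ.bl : Set (Fin (P δ.x).c.n → ℂ))

instance (δ : Disc P) : CompleteSpace (BH (δ.bl : Set (Fin (P δ.x).c.n → ℂ))) :=
  BH.completeSpace δ.bl.isOpen

/-- The generators over the disc. -/
def gens (δ : Disc P) (i : Fin (P δ.x).q) : Sec N δ.car := res N δ.car_le ((P δ.x).e i)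

/-- The section attached to bounded coefficients. -/
def sec (δ : Disc P) : B δ →ₗ[ℂ] Sec N δ.car where
  toFun b := ∑ i, (P δ.x).c.bh δ.bl (b i) • δ.gens i
  map_add' b b' := by
    simp only [Pi.add_apply, map_add, add_smul, Finset.sum_add_distrib]
  map_smul' a b := by
    simp only [Pi.smul_apply, map_smul, RingHom.id_apply, smul_assoc, Finset.smul_sum]

theorem sec_apply (δ : Disc P) (b : B δ) : δ.sec b = ∑ i, (P δ.x).c.bh δ.bl (b i) • δ.gens i := rfl

/-- Relative compactness. -/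
def rel (δ' δ : Disc P) : Prop :=
  δ'.x = δ.x ∧ (P δ'.x).c.pt '' closedBall δ'.a δ'.r ⊆ (P δ.x).c.pt '' ball δ.a δ.r

theorem rel_mk {x : An.Pts X} {a' a : Fin (P x).c.n → ℂ} {r' r : ℝ} {h1 h2 h3 h4} :
    rel (P := P) ⟨x, a', r', h1, h2⟩ ⟨x, a, r, h3, h4⟩ ↔ closedBall a' r' ⊆ ball a r := by
  constructor
  · rintro ⟨-, h⟩
    exact (image_subset_image_iff (P x).c.emb.injective).1 h
  · intro h
    exact ⟨rfl, image_mono h⟩

theorem rel_le {δ' δ : Disc P} (h : rel δ' δ) : δ'.car ≤ δ.car := by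
  refine (image_mono Metric.ball_subset_closedBall).trans h.2

/-- Restriction maps. -/
def resB {δ' δ : Disc P} (h : rel δ' δ) : B δ →L[ℂ] B δ' := by
  obtain ⟨x', a', r', p', s'⟩ := δ'
  obtain ⟨x, a, r, p, s⟩ := δ
  have hx : x' = x := h.1
  subst hx
  exact ContinuousLinearMap.pi fun i =>
    (BH.res (Metric.ball_subset_closedBall.trans (rel_mk.1 h))).comp (ContinuousLinearMap.proj i)

theorem compact {δ' δ : Disc P} (h : rel δ' δ) : IsCompactOperator (resB h) := by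
  obtain ⟨x', a', r', p', s'⟩ := δ'
  obtain ⟨x, a, r, p, s⟩ := δ
  have hx : x' = x := h.1
  subst hx
  refine CechFin.isCompactOperator_pi (fun i (b : B (P := P) ⟨x', a, r, p, s⟩) =>
    (BH.res (Metric.ball_subset_closedBall.trans (rel_mk.1 h))) (b i)) fun i => ?_
  have h1 : IsCompactOperator (BH.res (Metric.ball_subset_closedBall.trans (rel_mk.1 h)) :
      BH (ball a r) →L[ℂ] BH (ball a' r')) :=
    BH.isCompactOperator_res Metric.isOpen_ball Metric.isOpen_ball (isCompact_closedBall a' r')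
      Metric.ball_subset_closedBall (rel_mk.1 h)
  exact h1.comp_clm (ContinuousLinearMap.proj (R := ℂ) (φ := fun _ : Fin (P x').q => BH (ball a r)) i)

theorem sec_res {δ' δ : Disc P} (h : rel δ' δ) (b : B δ) :
    δ'.sec (resB h b) = res N (rel_le h) (δ.sec b) := by
  obtain ⟨x', a', r', p', s'⟩ := δ'
  obtain ⟨x, a, r, p, s⟩ := δ
  have hx : x' = x := h.1
  subst hx
  rw [sec_apply, sec_apply, map_sum]
  refine Finset.sum_congr rfl fun i _ => ?_
  rw [res_smul]
  congr 1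
  · exact ((P x').c.resO_bh _ _ _).symm
  · exact (res_res N _ _ _).symm

theorem exists_lift {δ' δ : Disc P} (h : rel δ' δ) (s : Sec N δ.car) :
    ∃ b : B δ', δ'.sec b = res N (rel_le h) s := by
  obtain ⟨x', a', r', p', s'⟩ := δ'
  obtain ⟨x, a, r, p, s0⟩ := δ
  have hx : x' = x := h.1
  subst hx
  have hsub : closedBall a' r' ⊆ ball a r := rel_mk.1 h
  let L := P x'
  have hcar : (Disc.mk (P := P) x' a r p s0).car ≤ L.c.im L.D := (Disc.mk (P := P) x' a r p s0).car_le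
  obtain ⟨W', hW', hKW', k, hk⟩ := L.gen a' r' p' s' _ hcar (fun z hz => ⟨z, hsub hz, rfl⟩) s
  have hpre : closedBall a' r' ⊆ L.c.pre W' := fun z hz => hKW' z hz
  -- the coefficients are bounded
  have hb : ∀ i, ∃ C : ℝ, ∀ z ∈ closedBall a' r', ‖L.c.fun_ (k i) z‖ ≤ C := fun i =>
    (isCompact_closedBall a' r').exists_bound_of_continuousOn
      ((L.c.fun_differentiableOn (k i)).continuousOn.mono hpre)
  choose C hC using hb
  let b : B (P := P) ⟨x', a', r', p', s'⟩ := fun i =>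
    BH.mk (L.c.fun_ (k i)) ((L.c.fun_differentiableOn (k i)).mono
      (Metric.ball_subset_closedBall.trans hpre)) (C i)
      (fun z hz => hC i z (Metric.ball_subset_closedBall hz))
  have hle : (Disc.mk (P := P) x' a' r' p' s').car ≤ W' := by
    rintro _ ⟨z, hz, rfl⟩
    exact hKW' z (Metric.ball_subset_closedBall hz)
  refine ⟨b, ?_⟩
  have h1 := congrArg (res N hle) hk
  rw [res_res, map_sum] at h1
  rw [h1, sec_apply]
  refine Finset.sum_congr rfl fun i _ => ?_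
  rw [res_smul, res_res]
  congr 1
  apply O_ext
  rintro ⟨_, z, hz, rfl⟩
  rw [toFn_resO, Chart.toFn_bh, Chart.coord_pt]
  rw [show BH.ext (b i) z = L.c.fun_ (k i) z from BH.ext_mk _ _ _ _ hz]
  exact L.c.fun_of_mem (k i) _

variable [∀ x : An.Pts X, IsLocalRing (stk x)] [∀ x : An.Pts X, IsNoetherianRing (stk x)]

variable (X) in
/-- The facts about the order of vanishing. -/
structure OrdFacts : Prop where
  fin : ∀ (x : An.Pts X) (k : ℕ), Module.Finite ℂ (stk x ⧸ IsLocalRing.maximalIdeal (stk x) ^ k)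
  cl : ∀ (c : Chart X) (D : Opens (Fin c.n → ℂ)) (a : Fin c.n → ℂ) (ha : a ∈ D) (k : ℕ),
    IsClosed {f : BH (D : Set (Fin c.n → ℂ)) |
      c.gbh D a ha f ∈ IsLocalRing.maximalIdeal (stk (c.pt a)) ^ k}

/-- The germs at a point of the coefficients. -/
def gmB (δ : Disc P) {x : An.Pts X} (hx : x ∈ δ.car) (i : Fin (P δ.x).q) : B δ →ₗ[ℂ] stk x :=
  gmₗ x hx ∘ₗ (P δ.x).c.bh δ.bl ∘ₗ LinearMap.proj i

omit [∀ x : An.Pts X, IsLocalRing (stk x)] [∀ x : An.Pts X, IsNoetherianRing (stk x)] in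
theorem gmB_apply (δ : Disc P) {x : An.Pts X} (hx : x ∈ δ.car) (i : Fin (P δ.x).q) (b : B δ) :
    δ.gmB hx i b = Chart.gm x hx ((P δ.x).c.bh δ.bl (b i)) := rfl

omit [∀ x : An.Pts X, IsNoetherianRing (stk x)] in
theorem isClosed_gmB (H : OrdFacts X) (δ : Disc P) {x : An.Pts X} (hx : x ∈ δ.car) (i : Fin (P δ.x).q)
    (k : ℕ) : IsClosed {b : B δ | δ.gmB hx i b ∈ IsLocalRing.maximalIdeal (stk x) ^ k} := by
  obtain ⟨z, hz, rfl⟩ := hx
  have h1 : Continuous (fun b : B δ => b i) := continuous_apply i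
  exact (H.cl (P δ.x).c δ.bl z hz k).preimage h1

omit [∀ x : An.Pts X, IsLocalRing (stk x)] [∀ x : An.Pts X, IsNoetherianRing (stk x)] in
theorem res_sec (δ : Disc P) {V : Opens (An.top X)} (h : V ≤ δ.car) (b : B δ) :
    res N h (δ.sec b) =
      ∑ i, resO h ((P δ.x).c.bh δ.bl (b i)) • res N h (δ.gens i) := by
  rw [sec_apply, map_sum]
  exact Finset.sum_congr rfl fun i _ => res_smul N h _ _

theorem closed (H : OrdFacts X) (δ₁ δ₂ δ₃ : Disc P) (V : Opens (An.top X)) (h₁ : V ≤ δ₁.car)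
    (h₂ : V ≤ δ₂.car) (h₃ : V ≤ δ₃.car) :
    IsClosed {b : B δ₁ × B δ₂ × B δ₃ | res N h₁ (δ₁.sec b.1) +
      res N h₂ (δ₂.sec b.2.1) + res N h₃ (δ₃.sec b.2.2) = 0} := by
  let ι := Fin (P δ₁.x).q ⊕ (Fin (P δ₂.x).q ⊕ Fin (P δ₃.x).q)
  let e : ι → Sec N V := Sum.elim (fun i => res N h₁ (δ₁.gens i))
    (Sum.elim (fun i => res N h₂ (δ₂.gens i)) (fun i => res N h₃ (δ₃.gens i)))
  let co : (B δ₁ × B δ₂ × B δ₃) → ι → O (An.hol X) V := fun b =>
    Sum.elim (fun i => resO h₁ ((P δ₁.x).c.bh δ₁.bl (b.1 i)))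
    (Sum.elim (fun i => resO h₂ ((P δ₂.x).c.bh δ₂.bl (b.2.1 i)))
      (fun i => resO h₃ ((P δ₃.x).c.bh δ₃.bl (b.2.2 i))))
  have h1 : ∀ b : B δ₁ × B δ₂ × B δ₃, res N h₁ (δ₁.sec b.1) +
      res N h₂ (δ₂.sec b.2.1) + res N h₃ (δ₃.sec b.2.2) = ∑ i, co b i • e i := by
    intro b
    rw [res_sec, res_sec, res_sec, Fintype.sum_sum_type, Fintype.sum_sum_type, add_assoc]
    rfl
  have h2 : {b : B δ₁ × B δ₂ × B δ₃ | res N h₁ (δ₁.sec b.1) +
      res N h₂ (δ₂.sec b.2.1) + res N h₃ (δ₃.sec b.2.2) = 0} =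
      ⋂ (x : An.Pts X) (hx : x ∈ V), {b | (fun i => Chart.gm x hx (co b i)) ∈ Rel N e x hx} := by
    ext b
    simp only [mem_iInter, mem_ofPred_eq]
    rw [h1, sum_eq_zero_iff]
  rw [h2]
  refine isClosed_iInter fun x => isClosed_iInter fun hx => ?_
  let Γ : (B δ₁ × B δ₂ × B δ₃) →ₗ[ℂ] (ι → stk x) := LinearMap.pi (Sum.rec
    (fun i => δ₁.gmB (h₁ hx) i ∘ₗ LinearMap.fst ℂ _ _)
    (Sum.rec (fun i => δ₂.gmB (h₂ hx) i ∘ₗ LinearMap.fst ℂ _ _ ∘ₗ LinearMap.snd ℂ _ _)
      (fun i => δ₃.gmB (h₃ hx) i ∘ₗ LinearMap.snd ℂ _ _ ∘ₗ LinearMap.snd ℂ _ _)))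
  have h3 : ∀ b, (fun i => Chart.gm x hx (co b i)) = Γ b := by
    intro b
    funext i
    rcases i with i | i | i
    · exact gm_resO x h₁ hx _
    · exact gm_resO x h₂ hx _
    · exact gm_resO x h₃ hx _
  simp only [h3]
  refine LCGen.isClosed_of_mem Γ (H.fin x) (fun i k => ?_) _
  rcases i with i | i | i
  · exact (isClosed_gmB H δ₁ (h₁ hx) i k).preimage continuous_fst
  · exact (isClosed_gmB H δ₂ (h₂ hx) i k).preimage (continuous_fst.comp continuous_snd)
  · exact (isClosed_gmB H δ₃ (h₃ hx) i k).preimage (continuous_snd.comp continuous_snd)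

omit [∀ x : An.Pts X, IsLocalRing (stk x)] [∀ x : An.Pts X, IsNoetherianRing (stk x)] in
/-- Small discs around a point. -/
theorem exists_small {x : An.Pts X} (y : An.Pts X) (z : Fin (P y).c.n → ℂ) (hz : z ∈ (P y).D)
    (hx : (P y).c.pt z = x) (U : Opens (An.top X)) (hxU : x ∈ U) :
    ∃ ε : ℝ, 0 < ε ∧ closedBall z ε ⊆ (P y).D ∧ ∀ w ∈ closedBall z ε, (P y).c.pt w ∈ U := by
  subst hx
  have h1 : (((P y).D ⊓ (P y).c.pre U : Opens (Fin (P y).c.n → ℂ)) : Set (Fin (P y).c.n → ℂ)) ∈ 𝓝 z :=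
    ((P y).D ⊓ (P y).c.pre U).isOpen.mem_nhds ⟨hz, hxU⟩
  obtain ⟨ε, hε, h2⟩ := Metric.nhds_basis_closedBall.mem_iff.1 h1
  exact ⟨ε, hε, fun w hw => (h2 hw).1, fun w hw => (h2 hw).2⟩

end Disc

variable [∀ x : An.Pts X, IsLocalRing (stk x)] [∀ x : An.Pts X, IsNoetherianRing (stk x)]

open Disc in
/-- The disc system. -/
def discSys [T2Space (An.Pts X)] (H : OrdFacts X) : DiscSys.{0, 0, 0} (ofMod N) where
  Δ := Disc P
  car := Disc.car
  B := Disc.B
  nacg δ := inferInstanceAs (NormedAddCommGroup (Disc.B δ))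
  ns δ := inferInstanceAs (NormedSpace ℂ (Disc.B δ))
  cs δ := inferInstanceAs (CompleteSpace (Disc.B δ))
  sec δ := δ.sec
  rel := rel
  le h := rel_le h
  res h := resB h
  compact h := Disc.compact h
  sec_res h b := sec_res h b
  lift h s := exists_lift h s
  closed δ₁ δ₂ δ₃ V h₁ h₂ h₃ := Disc.closed H δ₁ δ₂ δ₃ V h₁ h₂ h₃
  basis := by
    rintro ⟨y, a, r, p, s⟩ x ⟨z, hz, hzx⟩ U hxU
    have hzD : z ∈ (P y).D := s (Metric.ball_subset_closedBall hz)
    obtain ⟨ε₁, h1, h2, h3⟩ := exists_small y z hzD hzx U hxU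
    obtain ⟨ε₂, h4, h5⟩ := Metric.nhds_basis_closedBall.mem_iff.1 (Metric.isOpen_ball.mem_nhds hz)
    have hε : 0 < min ε₁ ε₂ := lt_min h1 h4
    refine ⟨⟨y, z, min ε₁ ε₂ / 2, half_pos hε, ?_⟩, ⟨y, z, min ε₁ ε₂, hε, ?_⟩, ?_, ?_, ?_, ?_⟩
    · exact (Metric.closedBall_subset_closedBall ((half_le_self hε.le).trans (min_le_left _ _))).trans h2
    · exact (Metric.closedBall_subset_closedBall (min_le_left _ _)).trans h2
    · exact ⟨z, Metric.mem_ball_self (half_pos hε), hzx⟩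
    · exact rel_mk.2 (Metric.closedBall_subset_ball (half_lt_self hε))
    · exact rel_mk.2 ((Metric.closedBall_subset_closedBall (min_le_right _ _)).trans h5)
    · rintro _ ⟨w, hw, rfl⟩
      exact h3 w (Metric.closedBall_subset_closedBall (min_le_left _ _)
        (Metric.ball_subset_closedBall hw))
  cover := by
    intro x
    obtain ⟨z, hz, hzx⟩ := (P x).hx
    obtain ⟨ε, h1, h2, -⟩ := exists_small x z hz hzx ⊤ trivial
    have hpos : ∀ k : Fin 4, 0 < ε * (((k : ℕ) : ℝ) + 1) / 4 := fun k => by positivity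
    have hle : ∀ k : Fin 4, ε * (((k : ℕ) : ℝ) + 1) / 4 ≤ ε := fun k => by
      have : ((k : ℕ) : ℝ) ≤ 3 := by
        have := k.2
        exact_mod_cast (by omega : (k : ℕ) ≤ 3)
      nlinarith
    have hlt : ∀ k : Fin 3, ε * (((k.castSucc : Fin 4) : ℕ) + 1 : ℝ) / 4 <
        ε * (((k.succ : Fin 4) : ℕ) + 1 : ℝ) / 4 := fun k => by
      simp only [Fin.val_castSucc, Fin.val_succ]
      push_cast
      nlinarith
    let δ : Fin 4 → Disc P := fun k => ⟨x, z, ε * (((k : ℕ) : ℝ) + 1) / 4, hpos k,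
      (Metric.closedBall_subset_closedBall (hle k)).trans h2⟩
    refine ⟨δ, ⟨z, Metric.mem_ball_self (hpos 0), hzx⟩, fun k => ⟨?_, ?_⟩⟩
    · exact rel_mk.2 (Metric.closedBall_subset_ball (hlt k))
    · have h3 : IsClosed ((P x).c.pt '' closedBall z (δ k.castSucc).r) :=
        ((isCompact_closedBall z _).image (P x).c.emb.continuous).isClosed
      refine (closure_minimal (image_mono Metric.ball_subset_closedBall) h3).trans ?_
      exact image_mono (Metric.closedBall_subset_ball (hlt k))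

/-- **The finiteness theorem**: `0 → N → I → Q` exact on sections, `I` flasque. -/
theorem finite_of_locPres [CompactSpace (An.Pts X)] [T2Space (An.Pts X)] (H : Disc.OrdFacts X)
    (P : ∀ x, LocPres N g x) (f : N ⟶ I) (R : CechFin.Resn (ofHom f) (ofHom g)) :
    Module.Finite ℂ (Sec Q ⊤ ⧸ LinearMap.range (appₗ g ⊤)) := by
  refine CechFin.finite_H1' (T := An.Pts X) R (discSys (P := P) H) ?_
  rintro ⟨y, a, r, p, s⟩ ξ
  obtain ⟨W, hW, t, ht⟩ := (P y).van a r p s ξ
  have hle : (Disc.mk (P := P) y a r p s).car ≤ W := by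
    rintro _ ⟨z, hz, rfl⟩
    exact hW z (Metric.ball_subset_closedBall hz)
  refine ⟨res I hle t, ?_⟩
  have h1 : app g _ (res I hle t) = res Q hle (app g W t) := app_res g hle t
  rw [ht, res_res] at h1
  exact h1

end Groth.Agent.Gaga.H335.ModDiscs
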