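import Groth.Agent.Gaga.H335.ModDiscs
import Groth.Agent.Gaga.H145.Ord
import Groth.Agent.Gaga.H506.AnPres

/-!
# Finiteness of `H¹` of a finitely presented analytic module, as a quotient of global sections

`finite_of_fp`: `X(ℂ)` compact Hausdorff, covered by charts; `N` locally finitely presented; `0 → N → I → Q → 0`
exact with `I` flasque. Then `Q(X) / I(X)` is finite dimensional.
-/

set_option autoImplicit false

open CategoryTheory AlgebraicGeometry Topology TopologicalSpace Opposite Filter Set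

noncomputable section

namespace Groth.Agent.Gaga.H335.FinSec

open Groth.Agent.Gaga.H990.ChartAt Groth.Agent.Gaga.H990.Stalk Groth.Agent.Gaga.H975.ModSec
open Groth.Agent.Gaga.H335.Chart Groth.Agent.Gaga.H335.CSh Groth.Agent.Gaga.H335.OfMod
open Groth.Agent.Gaga.H335.ModDiscs

variable {X : Scheme.{0}} [X.Over An.SC]

variable (X) in
/-- Every complex point is in a chart. -/
def HasCharts : Prop := ∀ x : An.Pts X, ∃ (c : Chart X) (a : Fin c.n → ℂ), c.pt a = x

theorem HasCharts.isNoetherianRing_stk (h : HasCharts X) (x : An.Pts X) : IsNoetherianRing (stk x) := by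
  obtain ⟨c, a, rfl⟩ := h x
  exact Groth.Agent.Gaga.H145.Ord.isNoetherianRing_stk c a

theorem HasCharts.ordFacts (h : HasCharts X) : Disc.OrdFacts X where
  fin x k := by
    obtain ⟨c, a, rfl⟩ := h x
    exact Groth.Agent.Gaga.H145.Ord.finite_quot c a k
  cl c D a ha k := Groth.Agent.Gaga.H145.Ord.isClosed_gbh c a D ha k

/-- **Finiteness theorem**, in terms of global sections. -/
theorem finite_of_fp [CompactSpace (An.Pts X)] [T2Space (An.Pts X)] (hch : HasCharts X)
    {N I Q : Mod (An.hol X)} (hN : ∀ x, Groth.Agent.Gaga.H976.TM3.FPAt N x) (f : N ⟶ I) (g : I ⟶ Q)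
    (hinj : ∀ V : Opens (An.top X), Function.Injective (app f V))
    (hex : ∀ (V : Opens (An.top X)) (s : Sec I V), app g V s = 0 → ∃ t, app f V t = s)
    (hz0 : ∀ (V : Opens (An.top X)) (t : Sec N V), app g V (app f V t) = 0)
    (hsurj : ∀ (V : Opens (An.top X)) (ξ : Sec Q V), ∀ x ∈ V, ∃ (V' : Opens (An.top X)) (h' : V' ≤ V),
      x ∈ V' ∧ ∃ t : Sec I V', app g V' t = res Q h' ξ)
    (hfl : ∀ V : Opens (An.top X), Function.Surjective (res I (le_top : V ≤ ⊤))) :
    Module.Finite ℂ (Sec Q ⊤ ⧸ LinearMap.range (appₗ g ⊤)) := by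
  have hnoeth : ∀ x : An.Pts X, IsNoetherianRing (stk x) := hch.isNoetherianRing_stk
  have hloc : ∀ x : An.Pts X, Nonempty (LocPres N g x) := by
    intro x
    obtain ⟨c, a, rfl⟩ := hch x
    exact Groth.Agent.Gaga.H506.AnPres.exists_locPres c a f g hex hz0 hsurj (hN _)
  refine finite_of_locPres hch.ordFacts (fun x => (hloc x).some) f ⟨?_, ?_, ?_, ?_⟩
  · exact fun U => hinj U
  · exact fun U s hs => hex U s hs
  · exact fun U t => hz0 U t
  · exact fun U => hfl U

end Groth.Agent.Gaga.H335.FinSec
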