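import Groth.Agent.Gaga.H335.ChartOpen
import Groth.Agent.Gaga.H335.FinSec
import Groth.Agent.S4205
import Groth.Agent.Ega3B.ProjProper
import Groth.Agent.CohqB.P1Charts
import Groth.Agent.Sga5.ProjChart

/-!
# Charts of the complex points of projective space

`stdImm n i : 𝔸ⁿ ⟶ ℙⁿ`, an open immersion over `ℂ` with image `D₊(X_i)`; every complex point of `ℙⁿ` is in a chart.
-/

set_option autoImplicit false

open CategoryTheory AlgebraicGeometry Topology TopologicalSpace Opposite Filter Set

noncomputable section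

namespace Groth.Agent.Gaga.H335.PnChart

open Groth.Agent.CohqB.ProjBC Groth.Agent.CohqB.P1Charts Groth.Agent.Sga5.ProjChart CohB1

variable (n : ℕ) (i : Fin (n + 1))

/-- The ring isomorphism as an isomorphism of affine schemes. -/
def specIso (R : Type) [CommRing R] : Spec (CommRingCat.of (MvPolynomial (Fin n) R)) ≅
    Spec (CommRingCat.of (HomogeneousLocalization.Away (polyGrading n R)
      (MvPolynomial.X i : MvPolynomial (Fin (n + 1)) R))) :=
  Scheme.Spec.mapIso (chartEquiv n R i).toCommRingCatIso.symm.op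

/-- The standard open immersion. -/
def stdImm : 𝔸(Fin n; An.SC) ⟶ ProjSpace n ℂ :=
  (AffineSpace.SpecIso (Fin n) (CommRingCat.of ℂ)).hom ≫ (specIso n i ℂ).hom ≫ chartι n i

instance : IsOpenImmersion (stdImm n i) := by
  unfold stdImm
  infer_instance

theorem stdImm_toSpec : stdImm n i ≫ ProjSpace.toSpec n ℂ = 𝔸(Fin n; An.SC) ↘ An.SC := by
  have h1 : (specIso n i ℂ).hom ≫ Spec.map (CommRingCat.ofHom (awayAlg n
      (MvPolynomial.X i : MvPolynomial (Fin (n + 1)) ℂ))) =
      Spec.map (CommRingCat.ofHom MvPolynomial.C) := by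
    change Spec.map _ ≫ Spec.map _ = _
    rw [← Spec.map_comp]
    congr 1
    apply CommRingCat.hom_ext
    apply RingHom.ext
    intro r
    change (chartEquiv n ℂ i).symm (awayAlg n (MvPolynomial.X i) r) = MvPolynomial.C r
    rw [RingEquiv.symm_apply_eq, chartEquiv_C]
    rfl
  have h2 := AffineSpace.SpecIso_inv_over (n := Fin n) (CommRingCat.of ℂ)
  rw [stdImm, Category.assoc, Category.assoc, chartι_toSpec, h1]
  exact (congrArg (fun f => (AffineSpace.SpecIso (Fin n) (CommRingCat.of ℂ)).hom ≫ f) h2.symm).trans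
    (Iso.hom_inv_id_assoc _ _)

instance : (stdImm n i).IsOver An.SC := ⟨stdImm_toSpec n i⟩

theorem opensRange_stdImm : (stdImm n i).opensRange = D n ℂ i := by
  rw [← opensRange_chartι]
  refine (Scheme.Hom.opensRange_comp_of_isIso _ _).trans ?_
  exact Scheme.Hom.opensRange_comp_of_isIso _ _

/-- Every complex point of projective space is in a chart. -/
theorem exists_chart (x : An.Pts (ProjSpace n ℂ)) :
    ∃ (c : Chart (ProjSpace n ℂ)) (a : Fin c.n → ℂ), c.pt a = x := by
  have h1 : x.pt ∈ (⨆ i, D n ℂ i : (ProjSpace n ℂ).Opens) := by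
    rw [iSup_D]
    trivial
  obtain ⟨i, hi⟩ := Opens.mem_iSup.1 h1
  rw [← opensRange_stdImm] at hi
  obtain ⟨z, hz⟩ := ChartOpen.mem_range_ofOpenImmersion (stdImm n i) x hi
  exact ⟨_, z, hz⟩

theorem hasCharts : FinSec.HasCharts (ProjSpace n ℂ) := exists_chart n

instance isProper : IsProper (ProjSpace n ℂ ↘ An.SC) :=
  Groth.Agent.Ega3B.ProjProper.isProper_toSpec n ℂ

theorem compactSpace_t2Space : CompactSpace (An.Pts (ProjSpace n ℂ)) ∧ T2Space (An.Pts (ProjSpace n ℂ)) :=
  (Groth.Agent.S4205.result (ProjSpace n ℂ)).1 inferInstance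

instance : CompactSpace (An.Pts (ProjSpace n ℂ)) := (compactSpace_t2Space n).1

instance : T2Space (An.Pts (ProjSpace n ℂ)) := (compactSpace_t2Space n).2

end Groth.Agent.Gaga.H335.PnChart
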