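import Groth.Agent.Gaga.H335.Godement
import Groth.Agent.Gaga.H335.FinSec
import Groth.Agent.Gaga.H335.PnChart
import Groth.Agent.Gaga.H981.HMod
import Groth.Agent.Gaga.H976.TM3
import Groth.Agent.CohtopA.Flasque

/-!
# Finiteness of `H¹` of a finitely presented analytic module

* `finite_H1`: `H¹` is finite dimensional if `X(ℂ)` is compact Hausdorff and is covered by charts;
* `finite_H1_proj`: the case of projective space.
-/

set_option autoImplicit false

open AlgebraicGeometry CategoryTheory CategoryTheory.Limits TopologicalSpace Opposite Topology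

noncomputable section

namespace Groth.Agent.Gaga.H335.FinH

open Groth.Agent.Gaga.H975.ModSec Groth.Agent.Gaga.H335.Godement Groth.Agent.Gaga.H981.HMod

variable {X : Scheme.{0}} [X.Over An.SC]

/-- The Godement sequence. -/
abbrev gs (N : An.AnMod X) : ShortComplex (An.AnMod X) := godSC (R := An.hol X) N

theorem gs_shortExact (N : An.AnMod X) : (gs N).ShortExact := godSC_shortExact (R := An.hol X) N

theorem finite_sec [CompactSpace (An.Pts X)] [T2Space (An.Pts X)] (hch : FinSec.HasCharts X)
    (N : An.AnMod X) [hN : N.IsFinitePresentation] :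
    Module.Finite ℂ (Sec (gs N).X₃ ⊤ ⧸ LinearMap.range (appL (gs N).g ⊤)) :=
  FinSec.finite_of_fp hch ((Groth.Agent.Gaga.H976.TM3.isFinitePresentation_iff N).1 hN) (gs N).f (gs N).g
    (fun V => app_f_injective (gs_shortExact N) V)
    (fun V s hs => exists_app_f (gs_shortExact N) V s hs)
    (fun V t => app_g_app_f (S := gs N) V t)
    (fun V ξ x hx => exists_app_g (gs_shortExact N) V ξ x hx)
    (fun _ => res_God_surjective N _)

/-- **Finiteness theorem** (Cartan–Serre) in degree one. -/
theorem finite_H1 [CompactSpace (An.Pts X)] [T2Space (An.Pts X)] (hch : FinSec.HasCharts X)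
    (N : An.AnMod X) [hN : N.IsFinitePresentation] : Module.Finite ℂ (An.AnMod.H N 1) := by
  have h := finite_sec hch N
  have hfl : TopCat.Sheaf.IsFlasque ((toAbA X).obj (God (R := An.hol X) N)) :=
    isFlasque_God (R := An.hol X) N
  have hsub := Groth.Agent.CohtopA.Flasque.subsingleton_H_succ ((toAbA X).obj (God (R := An.hol X) N)) 0
  have hker : LinearMap.range (appL (gs N).g ⊤) ≤
      LinearMap.ker ((δ (gs_shortExact N) 0).comp (H0 (gs N).X₃).symm.toLinearMap) := by
    rintro _ ⟨t, rfl⟩
    have h1 := (exact₃ (gs_shortExact N) 0 _).2 ⟨(H0 _).symm t, rfl⟩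
    rw [H0_symm_nat] at h1
    exact h1
  refine Module.Finite.of_surjective (Submodule.liftQ _ _ hker) fun e => ?_
  obtain ⟨e', he'⟩ := (exact₁ (gs_shortExact N) 0 e).1 (hsub.elim _ _)
  refine ⟨Submodule.Quotient.mk (H0 _ e'), he' ▸ ?_⟩
  change δ (gs_shortExact N) 0 ((H0 _).symm (H0 _ e')) = _
  rw [LinearEquiv.symm_apply_apply]

/-- **Finiteness theorem** (Cartan–Serre) in degree one on projective space. -/
theorem finite_H1_proj (n : ℕ) (N : An.AnMod (CohB1.ProjSpace n ℂ)) [N.IsFinitePresentation] :
    Module.Finite ℂ (An.AnMod.H N 1) :=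
  finite_H1 (PnChart.hasCharts n) N

end Groth.Agent.Gaga.H335.FinH
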