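import Groth.Agent.Gaga.H986.Stalk
import Groth.Agent.Gaga.H974.RExact
import Groth.Agent.CohtopA.Flasque
import Groth.Agent.CohtopA.Sec
import Groth.Agent.CohtopA.ModExt

/-!
# The Godement embedding of a sheaf of modules, elementwise

* `God N` : `V ↦ Π_{x ∈ V} N_x`; `η N : N ⟶ God N`; it is flasque;
* `exists_ses N` : a short exact sequence `0 → N → I → Q → 0` of modules with `I` flasque, exact elementwise.
-/

set_option autoImplicit false

open CategoryTheory CategoryTheory.Limits TopologicalSpace Opposite

noncomputable section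

namespace Groth.Agent.Gaga.H335.Godement

open Groth.Agent.Gaga.H975.ModSec Groth.Agent.Gaga.H986.Stalk

variable {T : TopCat.{0}} {R : TopCat.Sheaf CommRingCat.{0} T} (N : Mod R)

/-- Families of germs. -/
def PiSt (V : Opens T) : Type := ∀ x : V, St N x.1

instance (V : Opens T) : AddCommGroup (PiSt N V) := inferInstanceAs (AddCommGroup (∀ x : V, St N x.1))

variable {N} in
/-- The value at a point. -/
def PiSt.ev {V : Opens T} (s : PiSt N V) (x : T) (hx : x ∈ V) : St N x := s ⟨x, hx⟩

variable {N} in
/-- Constructor. -/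
def PiSt.mk {V : Opens T} (s : ∀ (x : T) (_ : x ∈ V), St N x) : PiSt N V := fun x => s x.1 x.2

variable {N} in
theorem PiSt.ext {V : Opens T} {s t : PiSt N V} (h : ∀ x hx, s.ev x hx = t.ev x hx) : s = t :=
  funext fun x => h x.1 x.2

@[simp] theorem PiSt.ev_mk {V : Opens T} (s : ∀ (x : T) (_ : x ∈ V), St N x) (x : T) (hx : x ∈ V) :
    (PiSt.mk s).ev x hx = s x hx := rfl

@[simp] theorem PiSt.ev_add {V : Opens T} (s t : PiSt N V) (x : T) (hx : x ∈ V) :
    (s + t).ev x hx = s.ev x hx + t.ev x hx := rfl

@[simp] theorem PiSt.ev_zero {V : Opens T} (x : T) (hx : x ∈ V) :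
    (0 : PiSt N V).ev x hx = 0 := rfl

instance smulPi (V : Opens T) : SMul (O R V) (PiSt N V) where
  smul r s := PiSt.mk fun x hx => gmO R x V hx r • s.ev x hx

@[simp] theorem PiSt.ev_smul {V : Opens T} (r : O R V) (s : PiSt N V) (x : T) (hx : x ∈ V) :
    (r • s).ev x hx = gmO R x V hx r • s.ev x hx := rfl

instance modPi (V : Opens T) : Module (O R V) (PiSt N V) where
  one_smul s := PiSt.ext fun x hx => by simp
  mul_smul a b s := PiSt.ext fun x hx => by simp [mul_smul]
  smul_zero a := PiSt.ext fun x hx => by simp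
  smul_add a s t := PiSt.ext fun x hx => by simp
  add_smul a b s := PiSt.ext fun x hx => by simp [add_smul]
  zero_smul s := PiSt.ext fun x hx => by simp

/-- The data of the Godement sheaf. -/
def data : Data R where
  S V := PiSt N V
  r {V W} h :=
    { toFun := fun s => PiSt.mk fun x hx => s.ev x (h hx)
      map_zero' := rfl
      map_add' := fun _ _ => rfl }
  r_self _ _ := rfl
  r_r _ _ _ := rfl
  r_smul h a s := PiSt.ext fun x hx => by
    change gmO R x _ (h hx) a • s.ev x (h hx) = gmO R x _ hx (resO h a) • s.ev x (h hx)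
    rw [gmO_resO]
  ext U s t h := PiSt.ext fun x hx => by
    obtain ⟨i, hi⟩ := Opens.mem_iSup.1 hx
    exact congrArg (fun s : PiSt N (U i) => s.ev x hi) (h i)
  glue U s h := by
    choose i hi using fun (x : T) (hx : x ∈ (⨆ i, U i : Opens T)) => Opens.mem_iSup.1 hx
    refine ⟨PiSt.mk fun x hx => (s (i x hx)).ev x (hi x hx), fun j => PiSt.ext fun x hx => ?_⟩
    have hx' : x ∈ (⨆ i, U i : Opens T) := Opens.mem_iSup.2 ⟨j, hx⟩
    exact congrArg (fun s : PiSt N (U (i x hx') ⊓ U j) => s.ev x ⟨hi x hx', hx⟩) (h (i x hx') j)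

/-- The Godement sheaf. -/
def God : Mod R := (data N).toMod

/-- The embedding in the Godement sheaf. -/
def η : N ⟶ God N :=
  homMk (fun V =>
    { toFun := fun s => (show Sec (God N) V from PiSt.mk (N := N) fun x hx => gm N x V hx s)
      map_zero' := PiSt.ext fun x hx => map_zero (gm N x _ hx)
      map_add' := fun s t => PiSt.ext fun x hx => map_add (gm N x _ hx) s t })
    (fun V r m => PiSt.ext fun x hx => gm_smul N x V hx r m)
    (fun V W h m => PiSt.ext fun x hx => gm_res N x h hx m)

theorem app_η_apply {V : Opens T} (s : Sec N V) (x : T) (hx : x ∈ V) :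
    (show PiSt N V from app (η N) V s).ev x hx = gm N x V hx s := rfl

theorem app_η_injective (V : Opens T) : Function.Injective (app (η N) V) := by
  intro s t h
  refine eq_of_gm N fun x hx => ?_
  rw [← app_η_apply, ← app_η_apply, h]

/-- The Godement sheaf is flasque. -/
theorem res_God_surjective {V W : Opens T} (h : W ≤ V) : Function.Surjective (res (God N) h) := by
  classical
  intro s
  refine ⟨(show Sec (God N) V from PiSt.mk (N := N) fun x _ =>
    if hx : x ∈ W then (show PiSt N W from s).ev x hx else 0), ?_⟩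
  exact PiSt.ext fun x hx => dif_pos hx

instance : PreservesFiniteColimits (SheafOfModules.toSheaf.{0} (ringSheaf R)) :=
  Groth.Agent.CohtopA.ModExt.toSheaf_preservesFiniteColimits _

/-- The underlying short complex of abelian sheaves. -/
abbrev ab (S : ShortComplex (Mod R)) : ShortComplex (CohTop.Ab T) :=
  S.map (SheafOfModules.toSheaf.{0} (ringSheaf R))

theorem shortExact_ab {S : ShortComplex (Mod R)} (hS : S.ShortExact) : (ab S).ShortExact :=
  hS.map_of_exact _

section Elt

variable {S : ShortComplex (Mod R)} (hS : S.ShortExact)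

include hS

theorem app_f_injective (V : Opens T) : Function.Injective (app S.f V) := by
  have : Mono (ab S).f := (shortExact_ab hS).mono_f
  exact Groth.Agent.CohtopA.Sec.m_injective (ab S).f V

theorem exists_app_f (V : Opens T) (s : Sec S.X₂ V) (h : app S.g V s = 0) :
    ∃ t : Sec S.X₁ V, app S.f V t = s :=
  Groth.Agent.CohtopA.Sec.exact_lift (shortExact_ab hS) (U := V) s h

omit hS in
theorem app_g_app_f (V : Opens T) (t : Sec S.X₁ V) : app S.g V (app S.f V t) = 0 :=
  Groth.Agent.CohtopA.Sec.m_f_g (S := ab S) (U := V) t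

theorem exists_app_g (V : Opens T) (ξ : Sec S.X₃ V) (x : T) (hx : x ∈ V) :
    ∃ (V' : Opens T) (h' : V' ≤ V), x ∈ V' ∧ ∃ t : Sec S.X₂ V', app S.g V' t = res S.X₃ h' ξ := by
  have : Epi (ab S).g := (shortExact_ab hS).epi_g
  obtain ⟨V', h', s, hx', hs⟩ := Groth.Agent.CohtopA.Sec.exists_lift (ab S).g (U := V) ξ x hx
  exact ⟨V', h', hx', s, hs⟩

end Elt

/-- The short exact sequence. -/
def godSC : ShortComplex (Mod R) := ShortComplex.mk (η N) (cokernel.π (η N)) (cokernel.condition _)

theorem mono_η : Mono (η N) := by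
  have : Mono ((SheafOfModules.toSheaf.{0} (ringSheaf R)).map (η N)) :=
    Groth.Agent.CohtopA.Sec.mono_of_injective _ fun V => app_η_injective N V
  exact (SheafOfModules.toSheaf.{0} (ringSheaf R)).mono_of_mono_map this

theorem godSC_shortExact : (godSC N).ShortExact where
  exact := ShortComplex.exact_cokernel (η N)
  mono_f := mono_η N
  epi_g := by dsimp [godSC]; infer_instance

theorem isFlasque_God : TopCat.Sheaf.IsFlasque ((SheafOfModules.toSheaf.{0} (ringSheaf R)).obj (God N)) := by
  constructor
  intro U V i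
  rw [AddCommGrpCat.epi_iff_surjective]
  exact res_God_surjective N i.unop.le

end Groth.Agent.Gaga.H335.Godement
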