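import Groth.Agent.Gaga.H335.Chart
import Groth.Agent.Gaga.H335.CSh

/-!
# The elementwise sheaf of complex vector spaces of an analytic module; relation submodules

* `Module ℂ (Sec N V)` through the constants; `ofMod N : Sh (An.Pts X)`, `ofHom φ : ShHom (ofMod N) (ofMod N')`;
* `Rel x hx e`: the submodule of germs of relations between the sections `e`; `mem_Rel_iff`.
-/

set_option autoImplicit false

open CategoryTheory AlgebraicGeometry Topology TopologicalSpace Opposite Filter Set

noncomputable section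

namespace Groth.Agent.Gaga.H335.OfMod

open Groth.Agent.Gaga.H990.ChartAt Groth.Agent.Gaga.H990.Stalk Groth.Agent.Gaga.H975.ModSec
open Groth.Agent.Gaga.H335.Chart Groth.Agent.Gaga.H335.CSh

variable {X : Scheme.{0}} [X.Over An.SC]

/-- Complex vector space structure on sections, through the constant functions. -/
instance modSec (N : Mod (An.hol X)) (V : Opens (An.top X)) : Module ℂ (Sec N V) :=
  Module.compHom (Sec N V) (algebraMap ℂ (O (An.hol X) V))

theorem smul_def (N : Mod (An.hol X)) (V : Opens (An.top X)) (a : ℂ) (s : Sec N V) :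
    a • s = algebraMap ℂ (O (An.hol X) V) a • s := rfl

instance (N : Mod (An.hol X)) (V : Opens (An.top X)) : IsScalarTower ℂ (O (An.hol X) V) (Sec N V) where
  smul_assoc a g s := by
    rw [smul_def, Algebra.smul_def, mul_smul]

instance (N : Mod (An.hol X)) (V : Opens (An.top X)) : SMulCommClass ℂ (O (An.hol X) V) (Sec N V) where
  smul_comm a g s := by
    rw [smul_def, smul_def, ← mul_smul, ← mul_smul, mul_comm]

/-- Restriction, `ℂ`-linear. -/
def resₗ (N : Mod (An.hol X)) {V W : Opens (An.top X)} (h : W ≤ V) : Sec N V →ₗ[ℂ] Sec N W where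
  toFun := res N h
  map_add' := map_add _
  map_smul' a s := by
    rw [RingHom.id_apply, smul_def, res_smul, resO_algebraMap, smul_def]

@[simp] theorem resₗ_apply (N : Mod (An.hol X)) {V W : Opens (An.top X)} (h : W ≤ V) (s : Sec N V) :
    resₗ N h s = res N h s := rfl

/-- Components of a morphism, `ℂ`-linear. -/
def appₗ {N N' : Mod (An.hol X)} (φ : N ⟶ N') (V : Opens (An.top X)) : Sec N V →ₗ[ℂ] Sec N' V where
  toFun := app φ V
  map_add' := map_add _
  map_smul' a s := by
    rw [RingHom.id_apply, smul_def, map_smul, smul_def]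

@[simp] theorem appₗ_apply {N N' : Mod (An.hol X)} (φ : N ⟶ N') (V : Opens (An.top X)) (s : Sec N V) :
    appₗ φ V s = app φ V s := rfl

/-- The elementwise sheaf of a module. -/
def ofMod (N : Mod (An.hol X)) : Sh.{0, 0} (An.Pts X) where
  S V := Sec N V
  acg V := inferInstanceAs (AddCommGroup (Sec N V))
  mod V := inferInstanceAs (Module ℂ (Sec N V))
  r h := resₗ N h
  r_self h s := res_self N h s
  r_r h h' s := res_res N h h' s
  sep s t h := eq_of_forall_nhds N s t fun x hx => by
    obtain ⟨V, hV, hxV, e⟩ := h x hx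
    exact ⟨V, hxV, hV, e⟩
  glue V s h := by
    obtain ⟨t, ht⟩ := exists_glue N V (iSup V) le_rfl (le_iSup V) s (fun i j W hi hj => by
      have h1 := congrArg (res N (le_inf hi hj)) (h i j)
      exact (res_res N inf_le_left (le_inf hi hj) (s i)).symm.trans
        (h1.trans (res_res N inf_le_right (le_inf hi hj) (s j))))
    exact ⟨t, ht⟩

/-- Morphisms, elementwise. -/
def ofHom {N N' : Mod (An.hol X)} (φ : N ⟶ N') : ShHom (ofMod N) (ofMod N') where
  app V := appₗ φ V
  nat h s := app_res φ h s

variable (N : Mod (An.hol X))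

/-- Germs of relations between sections. -/
def Rel {V : Opens (An.top X)} {ι : Type*} [Fintype ι] (e : ι → Sec N V) (x : An.Pts X) (hx : x ∈ V) :
    Submodule (stk x) (ι → stk x) where
  carrier := {v | ∃ (W : Opens (An.top X)) (hW : W ≤ V) (hxW : x ∈ W) (h : ι → O (An.hol X) W),
    (∀ i, gm x hxW (h i) = v i) ∧ ∑ i, h i • res N hW (e i) = 0}
  zero_mem' := ⟨V, le_rfl, hx, 0, fun i => map_zero _, by simp⟩
  add_mem' := by
    rintro v v' ⟨W, hW, hxW, h, h1, h2⟩ ⟨W', hW', hxW', h', h1', h2'⟩
    refine ⟨W ⊓ W', inf_le_left.trans hW, ⟨hxW, hxW'⟩,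
      fun i => resO (inf_le_left : W ⊓ W' ≤ W) (h i) + resO (inf_le_right : W ⊓ W' ≤ W') (h' i), ?_, ?_⟩
    · intro i
      rw [map_add, gm_resO, gm_resO, h1, h1']
      rfl
    · have e1 := congrArg (res N (inf_le_left : W ⊓ W' ≤ W)) h2
      have e2 := congrArg (res N (inf_le_right : W ⊓ W' ≤ W')) h2'
      simp only [map_sum, res_smul, res_res, map_zero] at e1 e2
      simp only [add_smul, Finset.sum_add_distrib]
      rw [e1, e2, add_zero]
  smul_mem' := by
    rintro a v ⟨W, hW, hxW, h, h1, h2⟩
    obtain ⟨W', hxW', b, rfl⟩ : ∃ (W' : Opens (An.top X)) (hxW' : x ∈ W') (b : O (An.hol X) W'),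
        gm x hxW' b = a := exists_germ x a
    refine ⟨W ⊓ W', inf_le_left.trans hW, ⟨hxW, hxW'⟩,
      fun i => resO (inf_le_right : W ⊓ W' ≤ W') b * resO (inf_le_left : W ⊓ W' ≤ W) (h i), ?_, ?_⟩
    · intro i
      rw [map_mul, gm_resO, gm_resO, h1]
      rfl
    · have e1 := congrArg (res N (inf_le_left : W ⊓ W' ≤ W)) h2
      simp only [map_sum, res_smul, res_res, map_zero] at e1
      simp only [mul_smul]
      rw [← Finset.smul_sum, e1, smul_zero]

theorem mem_Rel_iff {V : Opens (An.top X)} {ι : Type*} [Fintype ι] (e : ι → Sec N V) (x : An.Pts X)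
    (hx : x ∈ V) (h : ι → O (An.hol X) V) : (fun i => gm x hx (h i)) ∈ Rel N e x hx ↔
      ∃ (W : Opens (An.top X)) (hW : W ≤ V), x ∈ W ∧ res N hW (∑ i, h i • e i) = 0 := by
  constructor
  · rintro ⟨W, hW, hxW, h', h1, h2⟩
    -- the sections agree near `x`
    have h3 : ∀ i, ∃ (W' : Opens (An.top X)) (hW' : W' ≤ W), x ∈ W' ∧
        resO hW' (h' i) = resO (hW'.trans hW) (h i) := by
      intro i
      have h4 := (germ_eq_iff hxW hx (h' i) (h i)).1 (h1 i)
      obtain ⟨W', h5, h6, h7⟩ := eventually_nhds_iff.1 (h4.and (W.isOpen.mem_nhds hxW))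
      refine ⟨⟨W', h6⟩, fun y hy => (h5 y hy).2, h7, ?_⟩
      apply O_ext
      rintro ⟨y, hy⟩
      have hyW : y ∈ W := (h5 y hy).2
      exact (ext0_of_mem (toFn (h' i)) hyW).symm.trans
        ((h5 y hy).1.trans (ext0_of_mem (toFn (h i)) (hW hyW)))
    choose W' hW' hxW' h4 using h3
    let W'' : Opens (An.top X) := W ⊓ Finset.univ.inf W'
    have hW''i : ∀ i, W'' ≤ W' i := fun i => inf_le_right.trans (Finset.inf_le (Finset.mem_univ i))
    have hxW'' : x ∈ W'' := by
      refine ⟨hxW, ?_⟩
      have : ∀ s : Finset ι, x ∈ s.inf W' := by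
        intro s
        classical
        induction s using Finset.induction_on with
        | empty => exact trivial
        | insert i s hi ih =>
          rw [Finset.inf_insert]
          exact ⟨hxW' i, ih⟩
      exact this _
    refine ⟨W'', inf_le_left.trans hW, hxW'', ?_⟩
    have e1 := congrArg (res N (inf_le_left : W'' ≤ W)) h2
    simp only [map_sum, res_smul, res_res, map_zero] at e1
    rw [map_sum, ← e1]
    refine Finset.sum_congr rfl fun i _ => ?_
    rw [res_smul]
    congr 1
    have := congrArg (resO (hW''i i)) (h4 i)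
    rw [resO_resO, resO_resO] at this
    exact this.symm
  · rintro ⟨W, hW, hxW, h1⟩
    refine ⟨W, hW, hxW, fun i => resO hW (h i), fun i => gm_resO x hW hxW (h i), ?_⟩
    rw [map_sum] at h1
    rw [← h1]
    exact Finset.sum_congr rfl fun i _ => (res_smul N hW _ _).symm

/-- A combination of sections is zero iff all the germs of the coefficients are relations. -/
theorem sum_eq_zero_iff {V : Opens (An.top X)} {ι : Type*} [Fintype ι] (e : ι → Sec N V)
    (h : ι → O (An.hol X) V) : ∑ i, h i • e i = 0 ↔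
      ∀ (x : An.Pts X) (hx : x ∈ V), (fun i => gm x hx (h i)) ∈ Rel N e x hx := by
  constructor
  · intro h1 x hx
    rw [mem_Rel_iff]
    exact ⟨V, le_rfl, hx, by rw [h1, map_zero]⟩
  · intro h1
    refine eq_of_forall_nhds N _ _ fun x hx => ?_
    obtain ⟨W, hW, hxW, h2⟩ := (mem_Rel_iff N e x hx h).1 (h1 x hx)
    exact ⟨W, hxW, hW, by rw [h2, map_zero]⟩

end Groth.Agent.Gaga.H335.OfMod
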